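import Cfsg.Agent.Local.TameGL2
import Cfsg.Agent.Trans.Extraspecial
import Cfsg.Agent.Trans.SylowIn

/-!
Groups with an extraspecial Sylow `p`-subgroup of order `p ^ 3` and exponent `p`: the elements of
the Sylow normalizer coming from a plane whose automizer contains `SL(2, p)`.
-/

set_option autoImplicit false

namespace Cfsg.Lib.ExtraP3

open Subgroup Cfsg.Lib.Trans Cfsg.Lib.Trans.ES Cfsg.Lib.Solv Cfsg.Lib.TameGL2 Matrix
open scoped commutatorElement

variable {G : Type*} [Group G] {p : ℕ} [hp : Fact p.Prime]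

/-- The elements centralizing `z` and moving `a` inside the coset `a ⟨z⟩`. -/
def transv (z a : G) : Subgroup G where
  carrier := {g | g * z * g⁻¹ = z ∧ a⁻¹ * (g * a * g⁻¹) ∈ zpowers z}
  one_mem' := ⟨by simp, by simp⟩
  mul_mem' := by
    rintro g h ⟨g1, g2⟩ ⟨h1, k, h2⟩
    refine ⟨?_, ?_⟩
    · calc _ = g * (h * z * h⁻¹) * g⁻¹ := by group
        _ = _ := by rw [h1, g1]
    have e : g * z ^ k * g⁻¹ = z ^ k := by rw [← conj_zpow, g1]
    have h3 : h * a * h⁻¹ = a * z ^ k := by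
      rw [show z ^ k = a⁻¹ * (h * a * h⁻¹) from h2]; group
    have : a⁻¹ * (g * h * a * (g * h)⁻¹) = a⁻¹ * (g * a * g⁻¹) * (g * z ^ k * g⁻¹) := by
      calc _ = a⁻¹ * (g * (h * a * h⁻¹) * g⁻¹) := by group
        _ = _ := by rw [h3]; group
    rw [this, e]
    exact mul_mem g2 (zpow_mem_zpowers z k)
  inv_mem' := by
    rintro g ⟨g1, k, g2⟩
    have e0 : g⁻¹ * z * g⁻¹⁻¹ = z := by
      conv_lhs => rw [← g1]
      group
    refine ⟨e0, ?_⟩
    have e : g⁻¹ * z ^ k * g⁻¹⁻¹ = z ^ k := by rw [← conj_zpow, e0]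
    have : a⁻¹ * (g⁻¹ * a * g⁻¹⁻¹) = (g⁻¹ * z ^ k * g⁻¹⁻¹)⁻¹ := by
      have h3 : z ^ k = a⁻¹ * (g * a * g⁻¹) := g2
      rw [h3]; group
    rw [this, e]
    exact inv_mem (zpow_mem_zpowers z k)

section Key

variable [Finite G] (P : Sylow p G)

omit [Finite G] in
theorem conj_mem_transv (h : IsPre p (P : Subgroup G)) {z : (P : Subgroup G)}
    (hz : z ∈ center (P : Subgroup G)) (hz1 : z ≠ 1) (a y : (P : Subgroup G)) :
    (y : G) ∈ transv (z : G) a := by
  refine ⟨?_, ?_⟩
  · have := congrArg Subtype.val (mem_center_iff.1 hz y)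
    simp only [coe_mul] at this
    rw [this, mul_inv_cancel_right]
  · have h1 := h.classTwo a⁻¹ y
    rw [← h.zpowers_eq hz hz1] at h1
    obtain ⟨k, hk⟩ := h1
    refine ⟨k, ?_⟩
    have := congrArg Subtype.val hk
    simp only [commutatorElement_def, coe_mul, coe_inv, inv_inv, SubgroupClass.coe_zpow] at this
    simp only [this, mul_assoc]

/-- The diagonal element of `SL(2, p)` lifts to the Sylow normalizer. -/
theorem exists_diag (h : IsPre p (P : Subgroup G)) (hexp : ∀ e : (P : Subgroup G), e ^ p = 1)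
    {z a : (P : Subgroup G)} (hz : z ∈ center (P : Subgroup G)) (hz1 : z ≠ 1)
    (ha : a ∉ center (P : Subgroup G)) {g : G} (hga : g * a * g⁻¹ = a)
    (hgz : g * z * g⁻¹ = z * a) {s t : ℕ} (hst : p ∣ s * (t + 1) + t) :
    ∃ n ∈ normalizer ((P : Subgroup G) : Set G), n * z * n⁻¹ = (z : G) ^ (t + 1) ∧
      ((a : G) ^ (s + 1))⁻¹ * (n * a * n⁻¹) ∈ zpowers (z : G) := by
  have hc : Commute (z : G) a := congrArg Subtype.val (mem_center_iff.1 hz a).symm
  have hap : (a : G) ^ p = 1 := congrArg Subtype.val (hexp a)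
  have ga : ∀ k : ℕ, MulAut.conj (g ^ k) (a : G) = a := by
    intro k
    induction k with
    | zero => simp
    | succ k ih => rw [pow_succ', map_mul, MulAut.mul_apply, ih]; exact hga
  have gz : ∀ k : ℕ, MulAut.conj (g ^ k) (z : G) = z * a ^ k := by
    intro k
    induction k with
    | zero => simp
    | succ k ih =>
      rw [pow_succ, map_mul, MulAut.mul_apply, MulAut.conj_apply g, hgz, map_mul, ih, ga,
        mul_assoc, ← pow_succ]
  obtain ⟨y, hy⟩ := h.exists_comm_eq (x := a⁻¹) (by simpa using ha) hz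
  have ya : MulAut.conj (y : G) (a : G) = a * z := by
    rw [← hy]; simp [commutatorElement_def, mul_assoc]
  have yz : MulAut.conj (y : G) (z : G) = z := (conj_mem_transv P h hz hz1 a y).1
  set m : G := g ^ s * y * g ^ t with hm
  have mz : m * z * m⁻¹ = (z : G) ^ (t + 1) := by
    change MulAut.conj m (z : G) = _
    obtain ⟨c, hc'⟩ := hst
    have e1 : MulAut.conj (y : G) ((z : G) * a ^ t) = z ^ (t + 1) * a ^ t := by
      rw [map_mul, map_pow, yz, ya, hc.symm.mul_pow, (hc.symm.pow_pow t t).eq, ← mul_assoc,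
        ← pow_succ']
    have e2 : MulAut.conj (g ^ s) ((z : G) ^ (t + 1) * a ^ t) = z ^ (t + 1) := by
      rw [map_mul, map_pow (MulAut.conj (g ^ s)), map_pow (MulAut.conj (g ^ s)), ga, gz,
        (hc.pow_right s).mul_pow, ← pow_mul, mul_assoc, ← pow_add, hc', pow_mul, hap, one_pow,
        mul_one]
    rw [hm, map_mul, map_mul, MulAut.mul_apply, MulAut.mul_apply, gz, e1, e2]
  have ma : m * a * m⁻¹ = (a : G) ^ (s + 1) * z := by
    change MulAut.conj m (a : G) = _
    rw [hm, map_mul, map_mul, MulAut.mul_apply, MulAut.mul_apply, ga, ya, map_mul, ga, gz,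
      (hc.pow_right s).eq, ← mul_assoc, ← pow_succ']
  have hzm : ∀ w ∈ zpowers (z : G), m * w * m⁻¹ ∈ zpowers (z : G) := by
    rintro _ ⟨k, rfl⟩
    rw [← conj_zpow, mz]
    exact zpow_mem (pow_mem (mem_zpowers _) _) _
  have hmN : m ∈ normalizer (zpowers (z : G) : Set G) :=
    mem_normalizer_of_cj_le (cj_le_iff.2 hzm)
  have hPD : (P : Subgroup G) ≤ transv (z : G) a := fun y hy =>
    conj_mem_transv P h hz hz1 a ⟨y, hy⟩
  have hPD' : cj m⁻¹ (P : Subgroup G) ≤ transv (z : G) a := by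
    rw [cj_le_iff]
    intro x hx
    have h1 := (hPD hx).1
    have h2 := (conj_mem_transv P h hz hz1 (a ^ (s + 1) * z) ⟨x, hx⟩).2
    simp only [coe_mul, coe_pow] at h2
    rw [← ma] at h2
    refine ⟨?_, ?_⟩
    · have e : x * (m * z * m⁻¹) * x⁻¹ = m * z * m⁻¹ := by rw [mz, ← conj_pow, h1]
      calc _ = m⁻¹ * (x * (m * z * m⁻¹) * x⁻¹) * m := by group
        _ = _ := by rw [e]; group
    · have := mem_normalizer_conj' hmN h2
      convert this using 1
      group
  obtain ⟨d, hd, hdP⟩ := (isSylowIn_of_le P hPD).exists_cj_le (isPGroup_cj P.isPGroup' _) hPD'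
  rw [cj_cj] at hdP
  have hn := inv_mem (mem_normalizer_of_cj_le hdP)
  obtain ⟨d1, d2⟩ := (inv_mem hd : d⁻¹ ∈ transv (z : G) a)
  refine ⟨_, hn, ?_, ?_⟩
  · rw [← mz]
    conv_rhs => rw [← d1]
    group
  · have h3 := hzm _ d2
    have h4 := mul_mem (mem_zpowers (z : G)) h3
    convert h4 using 1
    have e : (a : G) ^ (s + 1) = m * a * m⁻¹ * (z : G)⁻¹ := by rw [ma]; group
    rw [e]; group

end Key

/-- The automorphism induced on the central quotient. -/
def cquot (E : Type*) [Group E] : MulAut E →* MulAut (E ⧸ center E) where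
  toFun α := QuotientGroup.congr _ _ α (characteristic_iff_map_eq.mp inferInstance α)
  map_one' := by ext ⟨v⟩; rfl
  map_mul' α β := by ext ⟨v⟩; rfl

theorem cquot_mk {E : Type*} [Group E] (α : MulAut E) (v : E) :
    cquot E α (v : E ⧸ center E) = (α v : E) := rfl

section Quot

variable {E : Type*} [Group E]

omit hp in
theorem elemAb_quot (h : IsPre p E) : ElemAb p (E ⧸ center E) :=
  (ElemAb.quotient_iff _).2 ⟨classTwo_iff.1 h.classTwo, h.pow_mem_center⟩

theorem card_quot [Finite E] (h : IsPre p E) (hc : Nat.card E = p ^ 3) :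
    Nat.card (E ⧸ center E) = p ^ 2 := by
  have := card_eq_card_quotient_mul_card_subgroup (center E)
  rw [hc, h.card_center, pow_succ] at this
  exact (Nat.eq_of_mul_eq_mul_right hp.out.pos this).symm

theorem pow_eq_one_of_scal (h : IsPre p E) {z a : E} (hz : z ∈ center E) (hz1 : z ≠ 1)
    (ha : a ∉ center E) (σ : MulAut E) {i j : ℕ} (hij : (i : ZMod p) * j = 1) (h1 : σ z = z ^ i)
    (h2 : (σ a : E ⧸ center E) = (a : E ⧸ center E) ^ j) {k : ℕ} (hk : Scal (cquot E σ ^ k)) :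
    (i : ZMod p) ^ (3 * k) = 1 := by
  have := elemAb_quot h
  obtain ⟨c, hc⟩ := hk
  rw [← map_pow] at hc
  have e1 : ∀ k : ℕ, (σ ^ k) z = z ^ i ^ k := by
    intro k
    induction k with
    | zero => simp
    | succ k ih => rw [pow_succ', MulAut.mul_apply, ih, map_pow, h1, ← pow_mul, ← pow_succ']
  have e2 : ∀ k : ℕ, cquot E (σ ^ k) (a : E ⧸ center E) = (a : E ⧸ center E) ^ j ^ k := by
    intro k
    induction k with
    | zero => simp
    | succ k ih =>
      rw [pow_succ', map_mul, MulAut.mul_apply, ih, map_pow, cquot_mk, h2, ← pow_mul, ← pow_succ']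
  have ha1 : (a : E ⧸ center E) ≠ 1 := fun e => ha ((QuotientGroup.eq_one_iff _).1 e)
  have e3 : ((j : ZMod p)) ^ k = c := by
    have := (e2 k).symm.trans (hc _)
    rw [pow_eq_pow_iff_modEq, ElemAb.orderOf_eq (p := p) ha1, ← ZMod.natCast_eq_natCast_iff] at this
    exact_mod_cast this
  obtain ⟨y, hy⟩ := h.exists_comm_eq ha hz
  have hmod : ∀ x : E, ∃ w ∈ center E, (σ ^ k) x = x ^ c * w := fun x => by
    have := hc x
    rw [cquot_mk, ← QuotientGroup.mk_pow, eq_comm, QuotientGroup.eq] at this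
    exact ⟨_, this, by group⟩
  have e4 : ((i : ZMod p)) ^ k = c ^ 2 := by
    obtain ⟨w, hw, ew⟩ := hmod a
    obtain ⟨w', hw', ew'⟩ := hmod y
    have := e1 k
    rw [← hy, map_commutatorElement, ew, ew', h.classTwo.mul_left, h.classTwo.mul_right,
      h.classTwo.pow_left, h.classTwo.pow_right, hy,
      commutatorElement_eq_one_iff_mul_comm.2 (mem_center_iff.1 hw' _),
      commutatorElement_eq_one_iff_mul_comm.2 (mem_center_iff.1 hw _).symm, mul_one, mul_one,
      ← pow_mul, pow_eq_pow_iff_modEq, h.orderOf_eq hz hz1, ← ZMod.natCast_eq_natCast_iff] at this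
    rw [pow_two]
    exact_mod_cast this.symm
  calc (i : ZMod p) ^ (3 * k) = (i : ZMod p) ^ k * ((i : ZMod p) ^ k) ^ 2 := by ring
    _ = ((j : ZMod p) ^ k * (i : ZMod p) ^ k) ^ 2 := by rw [e3, mul_pow, ← e4]
    _ = 1 := by rw [← mul_pow, mul_comm, hij, one_pow, one_pow]

end Quot

variable [Finite G] (P : Sylow p G)

/-- The action of the Sylow normalizer on the central quotient. -/
noncomputable abbrev act : normalizer ((P : Subgroup G) : Set G) →*
    MulAut ((P : Subgroup G) ⧸ center (P : Subgroup G)) :=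
  (cquot _).comp (P : Subgroup G).normalizerMonoidHom

theorem not_dvd_card_range_act (h : IsPre p (P : Subgroup G)) : ¬ p ∣ Nat.card (act P).range := by
  rw [← index_ker]
  have h1 : (P : Subgroup G).subgroupOf (normalizer ((P : Subgroup G) : Set G)) ≤ (act P).ker := by
    intro y hy
    rw [MonoidHom.mem_ker]
    ext ⟨v⟩
    have := (elemAb_quot h).comm
    change ((⟨(y : G), hy⟩ * v * ⟨(y : G), hy⟩⁻¹ : (P : Subgroup G)) :
      (P : Subgroup G) ⧸ center (P : Subgroup G)) = (v : (P : Subgroup G))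
    rw [QuotientGroup.mk_mul, QuotientGroup.mk_mul, this _ (v : _ ⧸ _), QuotientGroup.mk_inv,
      mul_inv_cancel_right]
  exact fun h2 => (isSylowIn_of_le P le_normalizer).not_dvd (h2.trans (index_dvd_of_le h1))

theorem exists_act (h : IsPre p (P : Subgroup G)) (hexp : ∀ e : (P : Subgroup G), e ^ p = 1)
    {z a : (P : Subgroup G)} (hz : z ∈ center (P : Subgroup G)) (hz1 : z ≠ 1)
    (ha : a ∉ center (P : Subgroup G)) {g : G} (hga : g * a * g⁻¹ = a)
    (hgz : g * z * g⁻¹ = z * a) :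
    ∃ n, act P n (a : (P : Subgroup G) ⧸ center (P : Subgroup G)) ∈
        zpowers (a : (P : Subgroup G) ⧸ center (P : Subgroup G)) ∧
      ∀ k, Scal (act P n ^ k) → p - 1 ∣ 3 * k := by
  obtain ⟨u, hu⟩ := IsCyclic.exists_ofOrder_eq_natCard (α := (ZMod p)ˣ)
  rw [Nat.card_units, Nat.card_zmod] at hu
  obtain ⟨t, ht⟩ : ∃ t : ℕ, ((t + 1 : ℕ) : ZMod p) = u :=
    ⟨((u : ZMod p) - 1).val, by simp⟩
  obtain ⟨s, hs⟩ : ∃ s : ℕ, ((s + 1 : ℕ) : ZMod p) = (u⁻¹ : (ZMod p)ˣ) :=
    ⟨(((u⁻¹ : (ZMod p)ˣ) : ZMod p) - 1).val, by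
      rw [Nat.cast_add, ZMod.natCast_zmod_val, Nat.cast_one, sub_add_cancel]⟩
  have hij : ((t + 1 : ℕ) : ZMod p) * (s + 1 : ℕ) = 1 := by rw [ht, hs, Units.mul_inv]
  obtain ⟨n, hn, h1, h2⟩ := exists_diag P h hexp hz hz1 ha hga hgz (s := s) (t := t) (by
    rw [← ZMod.natCast_eq_zero_iff]
    push_cast at hij ⊢
    linear_combination hij)
  have h3 : (((P : Subgroup G).normalizerMonoidHom ⟨n, hn⟩ a : (P : Subgroup G)) :
      (P : Subgroup G) ⧸ center (P : Subgroup G)) = (a : (P : Subgroup G)) ^ (s + 1) := by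
    rw [← QuotientGroup.mk_pow, eq_comm, QuotientGroup.eq, ← h.zpowers_eq hz hz1]
    obtain ⟨k, hk⟩ := h2
    exact ⟨k, Subtype.ext ((SubgroupClass.coe_zpow _ _).trans hk)⟩
  refine ⟨⟨n, hn⟩, ?_, fun k hk => ?_⟩
  · have h4 : act P ⟨n, hn⟩ (a : (P : Subgroup G)) = (a : (P : Subgroup G)) ^ (s + 1) := h3
    rw [h4]
    exact pow_mem (mem_zpowers _) _
  · have := pow_eq_one_of_scal h hz hz1 ha _ hij (Subtype.ext h1) h3 hk
    rw [ht, ← Units.val_pow_eq_pow_val, Units.val_eq_one, ← orderOf_dvd_iff_pow_eq_one, hu] at this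
    exact this

omit [Finite G] in
/-- A transvection of an elementary abelian group of order `p ^ 2`. -/
theorem exists_transvection {A : Type*} [Group A] [Finite A] [ElemAb p A] (hA : Nat.card A = p ^ 2)
    {z a : A} (hz : z ≠ 1) (ha : a ∉ zpowers z) :
    ∃ τ : MulAut A, orderOf τ = p ∧ τ a = a ∧ τ z = z * a := by
  have hli : LinearIndependent (ZMod p) ![Vec.ofMul p z, Vec.ofMul p a] := by
    rw [LinearIndependent.pair_iff' (by simpa using hz)]
    intro c hc
    rw [Vec.smul_ofMul] at hc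
    exact ha ((Vec.ofMul p).injective hc ▸ pow_mem (mem_zpowers z) _)
  let b := basisOfLinearIndependentOfCardEqFinrank hli
    (by rw [Vec.finrank_eq_of_card hA, Fintype.card_fin])
  have b0 : b.equivFun (Vec.ofMul p z) = ![1, 0] := by
    have : Vec.ofMul p z = b 0 := by simp [b]
    rw [this]; ext i; fin_cases i <;> simp
  have b1 : b.equivFun (Vec.ofMul p a) = ![0, 1] := by
    have : Vec.ofMul p a = b 1 := by simp [b]
    rw [this]; ext i; fin_cases i <;> simp
  obtain ⟨e, he⟩ := exists_coord b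
  let M : GL (Fin 2) (ZMod p) := Class.gl2 1 0 1 1 (by simp)
  have hM : ∀ n : ℕ, ((M ^ n : GL (Fin 2) (ZMod p)) : Matrix (Fin 2) (Fin 2) (ZMod p)) =
      !![1, 0; (n : ZMod p), 1] := by
    intro n
    induction n with
    | zero => ext i j; fin_cases i <;> fin_cases j <;> simp
    | succ n ih =>
      rw [pow_succ, Units.val_mul, ih]
      ext i j; fin_cases i <;> fin_cases j <;> simp [M, Matrix.mul_apply, Fin.sum_univ_two]
  refine ⟨e.symm M, ?_, ?_, ?_⟩
  · rw [MulEquiv.orderOf_eq]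
    refine orderOf_eq_prime (Units.ext ?_) fun h => ?_
    · rw [hM, ZMod.natCast_self]
      ext i j; fin_cases i <;> fin_cases j <;> simp
    · have := congrArg (fun N : GL (Fin 2) (ZMod p) => N.1 1 0) h
      simp [M] at this
  · apply (Vec.ofMul p).injective
    apply b.equivFun.injective
    rw [← he, e.apply_symm_apply, b1]
    ext i; fin_cases i <;> simp [M, mulVec, dotProduct, Fin.sum_univ_two]
  · apply (Vec.ofMul p).injective
    apply b.equivFun.injective
    rw [← he, e.apply_symm_apply, Vec.ofMul_mul, map_add, b0, b1]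
    ext i; fin_cases i <;> simp [M, mulVec, dotProduct, Fin.sum_univ_two]

theorem card_centralizer {E : Type*} [Group E] [Finite E] (h : IsPre p E)
    (hc : Nat.card E = p ^ 3) {a : E} (ha : a ∉ center E) :
    Nat.card (centralizer {a} : Subgroup E) = p ^ 2 := by
  have := (centralizer {a} : Subgroup E).index_mul_card
  rw [h.index_centralizer ha, hc, pow_succ'] at this
  exact Nat.eq_of_mul_eq_mul_left hp.out.pos this

theorem exists_plane {E : Type*} [Group E] [Finite E] (h : IsPre p E)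
    (hc : Nat.card E = p ^ 3) {A : Subgroup E} (hA : Nat.card A = p ^ 2) :
    ∃ a ∉ center E, A = centralizer {a} := by
  have := IsPGroup.isMulCommutative_of_card_eq_prime_sq hA
  obtain ⟨a, ha, haZ⟩ : ∃ a ∈ A, a ∉ center E := by
    by_contra! hcon
    have h1 := Trans.card_le_of_le (show A ≤ center E from hcon)
    rw [hA, h.card_center] at h1
    have := hp.out.two_le
    nlinarith
  refine ⟨a, haZ, eq_of_le_of_card_ge (fun x hx => ?_) ?_⟩
  · rw [mem_centralizer_singleton_iff]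
    exact congrArg Subtype.val (mul_comm' (⟨x, hx⟩ : A) ⟨a, ha⟩)
  · rw [hA, card_centralizer h hc haZ]

theorem centralizer_eq_of_mem {E : Type*} [Group E] [Finite E] (h : IsPre p E)
    (hc : Nat.card E = p ^ 3) {a b : E} (ha : a ∉ center E) (hb : b ∉ center E)
    (hab : (b : E ⧸ center E) ∈ zpowers (a : E ⧸ center E)) :
    (centralizer {a} : Subgroup E) = centralizer {b} := by
  refine eq_of_le_of_card_ge (fun x hx => ?_)
    (by rw [card_centralizer h hc ha, card_centralizer h hc hb])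
  obtain ⟨k, hk⟩ := hab
  have hk' : ((a ^ k : E) : E ⧸ center E) = b := by rw [QuotientGroup.mk_zpow]; exact hk
  rw [QuotientGroup.eq] at hk'
  rw [mem_centralizer_singleton_iff] at hx ⊢
  have h1 : Commute x (a ^ k) := Commute.zpow_right hx k
  have h2 : Commute x ((a ^ k)⁻¹ * b) := mem_center_iff.1 hk' x
  have := h1.mul_right h2
  rwa [mul_inv_cancel_left] at this

/-- Three planes with large automizers. -/
theorem sub_one_dvd (h : IsPre p (P : Subgroup G)) (hc : Nat.card (P : Subgroup G) = p ^ 3)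
    (hexp : ∀ e : (P : Subgroup G), e ^ p = 1) {z : (P : Subgroup G)}
    (hz : z ∈ center (P : Subgroup G)) (hz1 : z ≠ 1) (a : Fin 3 → (P : Subgroup G))
    (ha : ∀ i, a i ∉ center (P : Subgroup G))
    (hinj : ∀ i j, (centralizer {a i} : Subgroup (P : Subgroup G)) = centralizer {a j} → i = j)
    (hg : ∀ i, ∃ g : G, g * a i * g⁻¹ = a i ∧ g * z * g⁻¹ = z * a i) :
    p - 1 ∣ 6 ∨ p - 1 ∣ 9 ∨ p - 1 ∣ 12 ∨ p - 1 ∣ 15 := by
  have := elemAb_quot h
  by_cases h6 : p - 1 ∣ 6
  · exact Or.inl h6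
  have key := fun i => (hg i).elim fun g hg => exists_act P h hexp hz hz1 (ha i) hg.1 hg.2
  obtain ⟨n, -, hn⟩ := key 0
  have h1 := three_lines (card_quot h hc) (act P) (not_dvd_card_range_act P h)
    (fun i => (a i : (P : Subgroup G) ⧸ center (P : Subgroup G)))
    (fun i e => ha i ((QuotientGroup.eq_one_iff _).1 e))
    (fun i j e => hinj i j (centralizer_eq_of_mem h hc (ha i) (ha j) e))
    (fun i => (key i).imp fun w hw => ⟨hw.1, fun e => h6 (hw.2 2 e)⟩) n
  exact h1.imp (hn 2) fun h2 => h2.imp (hn 3) fun h3 => h3.imp (hn 4) (hn 5)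

/-- All planes have large automizers. -/
theorem three_dvd (h : IsPre p (P : Subgroup G)) (hc : Nat.card (P : Subgroup G) = p ^ 3)
    (hexp : ∀ e : (P : Subgroup G), e ^ p = 1) {z : (P : Subgroup G)}
    (hz : z ∈ center (P : Subgroup G)) (hz1 : z ≠ 1)
    (hg : ∀ a : (P : Subgroup G), a ∉ center (P : Subgroup G) →
      ∃ g : G, g * a * g⁻¹ = a ∧ g * z * g⁻¹ = z * a)
    (h6 : ¬ p - 1 ∣ 6) (h9 : ¬ p - 1 ∣ 9) (h15 : ¬ p - 1 ∣ 15) : 3 ∣ p + 1 := by
  have := elemAb_quot h
  refine all_lines (card_quot h hc) (act P) (not_dvd_card_range_act P h) fun v hv => ?_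
  obtain ⟨a, rfl⟩ := QuotientGroup.mk_surjective v
  have ha : a ∉ center (P : Subgroup G) := fun e => hv ((QuotientGroup.eq_one_iff _).2 e)
  obtain ⟨g, g1, g2⟩ := hg a ha
  obtain ⟨n, h1, h2⟩ := exists_act P h hexp hz hz1 ha g1 g2
  exact ⟨n, h1, fun e => h6 (h2 2 e), fun e => h9 (h2 3 e), fun e => h15 (h2 5 e)⟩

end Cfsg.Lib.ExtraP3
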