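import Cfsg.Agent.Trans.SmallOrderAction
import Cfsg.Agent.Trans.AutomizerOrder
import Cfsg.Agent.Trans.AutSmall
import Cfsg.Agent.Trans.Alperin
import Cfsg.Agent.Trans.Tate
import Cfsg.Agent.Solv.SupersolvableCriteria
import Cfsg.Agent.Solv.PGroupNormal
import Cfsg.Agent.Solv.FrattiniP
import Cfsg.Agent.Solv.CoprimeFixed

/-!
Groups in which all subgroups of a given order `p ^ k` of a `p`-subgroup are strongly closed.
-/

set_option autoImplicit false

namespace Cfsg.Lib.HSub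

open Cfsg.Lib.Trans Subgroup

universe u

section
variable {G : Type u} [Group G] {p : ℕ}

theorem normalizer_le_of_isCyclic {H X : Subgroup G} [Finite G] (hX : IsCyclic X) (h : H ≤ X) :
    normalizer (X : Set G) ≤ normalizer (H : Set G) := by
  intro n hn
  obtain ⟨x, rfl⟩ := X.isCyclic_iff_exists_zpowers_eq_top.1 hX
  refine mem_normalizer_of_cj_le (cj_le_iff.2 fun y hy => ?_)
  obtain ⟨i, rfl⟩ := mem_zpowers_iff.1 (h hy)
  obtain ⟨j, hj⟩ := mem_zpowers_iff.1 (mem_normalizer_conj hn (mem_zpowers x))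
  rw [← conj_zpow, ← hj, ← zpow_mul, mul_comm, zpow_mul]
  exact zpow_mem hy j

/-- The element `α` acts trivially on the `L`-invariant sections of order `p`. -/
def Tv (p : ℕ) (L : Subgroup G) (α : G) : Prop :=
  ∀ M R : Subgroup G, IsPGroup p R → M ≤ R → M.relIndex R = p → L ≤ normalizer (M : Set G) →
    L ≤ normalizer (R : Set G) → ∀ r ∈ R, α * r * α⁻¹ * r⁻¹ ∈ M

variable [Finite G] [hp : Fact p.Prime]

theorem exists_between {A Q : Subgroup G} (hA : A ≤ Q) {a m : ℕ} (ha : Nat.card A = p ^ a)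
    (ham : a ≤ m) (hm : p ^ m ∣ Nat.card Q) : ∃ R, A ≤ R ∧ R ≤ Q ∧ Nat.card R = p ^ m := by
  obtain ⟨K, hK, hle⟩ := Sylow.exists_subgroup_card_pow_prime_le p hm (A.subgroupOf Q)
    (by rw [Solv.Coprime.card_subgroupOf hA, ha]) ham
  refine ⟨K.map Q.subtype, fun x hx => ⟨⟨x, hA hx⟩, hle hx, rfl⟩, map_subtype_le _, ?_⟩
  rw [card_map_of_injective Q.subtype_injective, hK]

omit [Finite G] hp in
theorem relIndex_map_subtype {R : Subgroup G} (M : Subgroup R) :
    (M.map R.subtype).relIndex R = M.index := by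
  rw [relIndex, subgroupOf, comap_map_eq_self_of_injective R.subtype_injective]

theorem mem_map_frattini {R : Subgroup G} (hR : IsPGroup p R) {x : G} (hx : x ∈ R)
    (h : ∀ M ≤ R, M.relIndex R = p → x ∈ M) : x ∈ (frattini R).map R.subtype := by
  refine ⟨⟨x, hx⟩, Solv.mem_frattini_iff.2 fun M hM => ?_, rfl⟩
  obtain ⟨y, hy, e⟩ := h (M.map R.subtype) (map_subtype_le _)
    (by rw [relIndex_map_subtype, Solv.index_eq_of_isCoatom_of_isPGroup hR hM])
  rwa [show (⟨x, hx⟩ : R) = y from Subtype.ext e.symm]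

theorem card_of_relIndex {M R : Subgroup G} (h : M ≤ R) (hi : M.relIndex R = p) {k : ℕ}
    (hR : Nat.card R = p ^ (k + 1)) : Nat.card M = p ^ k := by
  have := card_mul_relIndex h
  rw [hi, hR, pow_succ] at this
  exact Nat.eq_of_mul_eq_mul_right hp.out.pos this

theorem mem_unitsResidual_of_coprime {a : G} (h : (orderOf a).Coprime (p - 1)) :
    a ∈ Solv.unitsResidual p G :=
  mem_of_pow_mem_of_coprime (Solv.pow_mem_unitsResidual p a) h

theorem tv_of_mem {L : Subgroup G} {a : L} (ha : a ∈ Solv.unitsResidual p L) : Tv p L a := by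
  intro M R hR hMR hi hLM hLR r hr
  have hRM : R ≤ normalizer (M : Set G) :=
    (normal_subgroupOf_iff_le_normalizer hMR).1 (Solv.PG.normal_of_index_eq_prime hR hi)
  have hMn : (M.subgroupOf (L ⊔ R)).Normal :=
    (normal_subgroupOf_iff_le_normalizer (hMR.trans le_sup_right)).2 (sup_le hLM hRM)
  have hRn : (R.subgroupOf (L ⊔ R)).Normal :=
    (normal_subgroupOf_iff_le_normalizer le_sup_right).2 (sup_le hLR le_normalizer)
  let π := QuotientGroup.mk' (M.subgroupOf (L ⊔ R))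
  have : ((R.subgroupOf (L ⊔ R)).map π).Normal := hRn.map π (QuotientGroup.mk'_surjective _)
  have hc : Nat.card ((R.subgroupOf (L ⊔ R)).map π) = p := by
    rw [← relIndex_ker, QuotientGroup.ker_mk', relIndex_subgroupOf le_sup_right, hi]
  have : IsCyclic ((R.subgroupOf (L ⊔ R)).map π) := isCyclic_of_prime_card hc
  have h1 := Solv.unitsResidual_le_centralizer _ hc
    (Solv.map_mem_unitsResidual (π.comp (inclusion le_sup_left)) ha)
    (π ⟨r, mem_sup_right hr⟩) (mem_map_of_mem _ hr)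
  have h2 : π (inclusion le_sup_left a * ⟨r, mem_sup_right hr⟩ * (inclusion le_sup_left a)⁻¹ *
      (⟨r, mem_sup_right hr⟩ : ↥(L ⊔ R))⁻¹) = 1 := by
    rw [map_mul, map_mul, map_mul, map_inv, map_inv]
    rw [MonoidHom.comp_apply] at h1
    rw [← h1]
    group
  exact mem_subgroupOf.1 ((QuotientGroup.eq_one_iff _).1 h2)

variable {L : Subgroup G} {α : G}

theorem Tv.cent (h : Tv p L α) (hα : α ∈ L) (hc : (orderOf α).Coprime p) {R : Subgroup G}
    (hR : IsPGroup p R) (hLR : L ≤ normalizer (R : Set G))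
    (hM : ∀ M ≤ R, M.relIndex R = p → L ≤ normalizer (M : Set G)) :
    α ∈ centralizer (R : Set G) := by
  have hn : zpowers α ≤ normalizer (R : Set G) := zpowers_le.2 (hLR hα)
  refine Solv.Coprime.le_centralizer_of_commutator_le_frattini hn ?_ ?_ (mem_zpowers α)
  · rw [Nat.card_zpowers]
    exact (Solv.coprime_card_of_isPGroup (hR.to_subgroup _) hc).symm
  · let Φ := (frattini R).map R.subtype
    let K : Subgroup G :=
      { carrier := {g | g ∈ normalizer (R : Set G) ∧ ∀ r ∈ R, g * r * g⁻¹ * r⁻¹ ∈ Φ}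
        one_mem' := ⟨one_mem _, fun r _ => by simp⟩
        mul_mem' := fun {a b} ha hb => ⟨mul_mem ha.1 hb.1, fun r hr => by
          have := mul_mem (ha.2 _ (mem_normalizer_conj hb.1 hr)) (hb.2 r hr)
          rwa [show a * (b * r * b⁻¹) * a⁻¹ * (b * r * b⁻¹)⁻¹ * (b * r * b⁻¹ * r⁻¹) =
            a * b * r * (a * b)⁻¹ * r⁻¹ by group] at this⟩
        inv_mem' := fun {a} ha => ⟨inv_mem ha.1, fun r hr => by
          have := inv_mem (ha.2 _ (mem_normalizer_conj' ha.1 hr))
          rwa [show (a * (a⁻¹ * r * a) * a⁻¹ * (a⁻¹ * r * a)⁻¹)⁻¹ = a⁻¹ * r * a⁻¹⁻¹ * r⁻¹ by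
            group] at this⟩ }
    have hK : zpowers α ≤ K := zpowers_le.2 ⟨hLR hα, fun r hr =>
      mem_map_frattini hR (mul_mem (mem_normalizer_conj (hLR hα) hr) (inv_mem hr))
        fun M hMR hi => h M R hR hMR hi (hM M hMR hi) hLR r hr⟩
    rw [commutator_comm]
    exact commutator_le.2 fun a ha r hr => (hK ha).2 r hr

theorem Tv.cent_cyclic (h : Tv p L α) (hα : α ∈ L) (hc : (orderOf α).Coprime p) {R : Subgroup G}
    (hR : IsPGroup p R) (hcyc : IsCyclic R) (hLR : L ≤ normalizer (R : Set G)) :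
    α ∈ centralizer (R : Set G) :=
  h.cent hα hc hR hLR fun _ hM _ => hLR.trans (normalizer_le_of_isCyclic hcyc hM)

theorem Tv.cent_card (h : Tv p L α) (hα : α ∈ L) (hc : (orderOf α).Coprime p) {Q : Subgroup G}
    {k : ℕ} (hQ : p ^ (k + 1) ∣ Nat.card Q)
    (hk : ∀ E ≤ Q, Nat.card E = p ^ k → L ≤ normalizer (E : Set G)) {E : Subgroup G} (hE : E ≤ Q)
    (hEc : Nat.card E = p ^ k) : α ∈ centralizer (E : Set G) := by
  obtain ⟨R, hER, hRQ, hRc⟩ := exists_between hE hEc k.le_succ hQ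
  have hR : IsPGroup p R := IsPGroup.of_card hRc
  by_cases hcyc : IsCyclic R
  · exact h.cent_cyclic hα hc (IsPGroup.of_card hEc) (isCyclic_of_le hER) (hk E hE hEc)
  have hM : ∀ M ≤ R, M.relIndex R = p → L ≤ normalizer (M : Set G) := fun M hM hi =>
    hk M (hM.trans hRQ) (card_of_relIndex hM hi hRc)
  refine centralizer_le hER (h.cent hα hc hR ?_ hM)
  have : ∃ M N : Subgroup R, IsCoatom M ∧ IsCoatom N ∧ M ≠ N := by
    by_contra hn
    push_neg at hn
    exact hcyc (Solv.isCyclic_of_isCoatom_unique hn)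
  obtain ⟨M, N, hM1, hN1, hne⟩ := this
  have e : M.map R.subtype ⊔ N.map R.subtype = R := by
    rw [← Subgroup.map_sup, hM1.sup_eq_top_of_ne hN1 hne, ← MonoidHom.range_eq_map, range_subtype]
  intro l hl
  have key : ∀ X : Subgroup R, IsCoatom X → cj l (X.map R.subtype) = X.map R.subtype :=
    fun X hX => cj_eq_of_mem_normalizer (hM _ (map_subtype_le _)
      (by rw [relIndex_map_subtype, Solv.index_eq_of_isCoatom_of_isPGroup hR hX]) hl)
  rw [← cj_eq_self_iff, ← e, cj_sup, key M hM1, key N hN1]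

theorem Tv.cent_all (h : Tv p L α) (hα : α ∈ L) (hc : (orderOf α).Coprime p) {Q : Subgroup G}
    (hQp : IsPGroup p Q) (hαQ : α ∈ normalizer (Q : Set G)) {k : ℕ} (hk1 : 1 ≤ k)
    (hQ : p ^ (k + 1) ∣ Nat.card Q)
    (hk : ∀ E ≤ Q, (Nat.card E = p ^ k ∨ (p ^ k = 2 ∧ Nat.card E = 4)) →
      L ≤ normalizer (E : Set G)) : α ∈ centralizer (Q : Set G) := by
  refine le_centralizer_of_fix_small_order hQp (zpowers_le.2 hαQ) (by rwa [Nat.card_zpowers])
    (fun x hx hx' a ha => ?_) (mem_zpowers α)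
  refine (zpowers_le.2 ?_ : zpowers α ≤ centralizer (zpowers x : Set G)) ha x (mem_zpowers x)
  have hxp : IsPGroup p (zpowers x) := hQp.to_le (zpowers_le.2 hx)
  obtain ⟨j, hj⟩ := IsPGroup.iff_card.1 hxp
  by_cases hjk : j ≤ k
  · obtain ⟨E, h1, h2, h3⟩ := exists_between (zpowers_le.2 hx) hj hjk
      ((pow_dvd_pow p k.le_succ).trans hQ)
    exact centralizer_le h1 (h.cent_card hα hc hQ (fun E hE hEc => hk E hE (Or.inl hEc)) h2 h3)
  refine h.cent_cyclic hα hc hxp inferInstance (hk _ (zpowers_le.2 hx) (Or.inr ?_))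
  rw [Nat.card_zpowers] at hj ⊢
  rcases hx' with h1 | ⟨rfl, h1⟩
  · have := orderOf_dvd_of_pow_eq_one h1
    rw [hj] at this
    have := (Nat.pow_dvd_pow_iff_le_right hp.out.one_lt).1 (this.trans (pow_one p).symm.dvd)
    omega
  · have := orderOf_dvd_of_pow_eq_one h1
    rw [hj] at this
    have := (Nat.pow_dvd_pow_iff_le_right (k := j) (l := 2) one_lt_two).1 this
    obtain rfl : k = 1 := by omega
    obtain rfl : j = 2 := by omega
    exact ⟨rfl, hj⟩

/-- A subgroup that is strongly closed in its normaliser is strongly closed in every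
`p`-subgroup containing it. -/
theorem closed_of_inf_le {E P : Subgroup G} (hP : IsPGroup p P) (hE : E ≤ P)
    (h : ∀ g : G, cj g E ⊓ normalizer (E : Set G) ≤ E) {g x : G} (hx : x ∈ E)
    (hg : g * x * g⁻¹ ∈ P) : g * x * g⁻¹ ∈ E := by
  refine h g ⟨conj_mem_cj.2 hx, ?_⟩
  by_contra hn
  have h1 : P ⊓ normalizer (E : Set G) < P :=
    lt_of_le_not_ge inf_le_left fun h => hn (h hg).2
  refine (lt_inf_normalizer hP h1).not_ge fun y hy => ⟨hy.1, mem_normalizer_of_cj_le fun z hz =>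
    h y ⟨hz, ?_⟩⟩
  have := cj_mono y (le_inf hE le_normalizer) hz
  rw [cj_eq_of_mem_normalizer hy.2] at this
  exact this.2

/-- The `p`-nilpotency criterion. -/
theorem hasNormalPComplement_of_closed (hG : (Nat.card G).Coprime (p - 1)) (P : Sylow p G) {k : ℕ}
    (hk1 : 1 ≤ k) (hP : p ^ (k + 1) ∣ Nat.card (P : Subgroup G))
    (h : ∀ E ≤ (P : Subgroup G), (Nat.card E = p ^ k ∨ (p ^ k = 2 ∧ Nat.card E = 4)) →
      ∀ x ∈ E, ∀ g : G, g * x * g⁻¹ ∈ (P : Subgroup G) → g * x * g⁻¹ ∈ E) :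
    HasNormalPComplement p G := by
  let Φ := (frattini P).map (P : Subgroup G).subtype
  have loc : ∀ U ≤ (P : Subgroup G), ∀ α ∈ normalizer (U : Set G), (orderOf α).Coprime p →
      ∀ a ∈ U, α * a * α⁻¹ * a⁻¹ ∈ Φ := by
    intro U hU α hα hc a ha
    have hUp := P.isPGroup'.to_le hU
    have hL : zpowers α ≤ normalizer (U : Set G) := zpowers_le.2 hα
    have tv : Tv p (zpowers α) α := tv_of_mem (a := ⟨α, mem_zpowers α⟩)
      (mem_unitsResidual_of_coprime (by
        rw [← Subgroup.orderOf_coe]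
        exact hG.coprime_dvd_left (orderOf_dvd_natCard α)))
    have inv : ∀ E ≤ (P : Subgroup G), (Nat.card E = p ^ k ∨ (p ^ k = 2 ∧ Nat.card E = 4)) →
        zpowers α ≤ normalizer ((E ⊓ U : Subgroup G) : Set G) := fun E hE hEc l hl =>
      mem_normalizer_of_cj_le (cj_le_iff.2 fun x hx =>
        ⟨h E hE hEc x hx.1 l (hU (mem_normalizer_conj (hL hl) hx.2)),
          mem_normalizer_conj (hL hl) hx.2⟩)
    by_cases hUc : p ^ (k + 1) ∣ Nat.card U
    · have := tv.cent_all (mem_zpowers α) hc hUp hα hk1 hUc fun E hE hEc => by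
        have := inv E (hE.trans hU) hEc
        rwa [inf_of_le_left hE] at this
      rw [conj_eq_of_mem_centralizer this ha, mul_inv_cancel]
      exact one_mem _
    obtain ⟨j, hj⟩ := IsPGroup.iff_card.1 hUp
    obtain ⟨R, hUR, hRP, hRc⟩ := exists_between hU hj (m := k + 1) (by
      by_contra hn
      exact hUc (hj ▸ pow_dvd_pow p (by omega))) hP
    have hR := P.isPGroup'.to_le hRP
    have hm := mul_mem (mem_normalizer_conj hα ha) (inv_mem ha)
    refine Solv.map_frattini_mono P.isPGroup' hRP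
      (mem_map_frattini hR (hUR hm) fun M hM hi => ?_)
    by_cases hUM : U ≤ M
    · exact hUM hm
    refine (tv (M ⊓ U) U hUp inf_le_right ?_
      (inv M (hM.trans hRP) (Or.inl (card_of_relIndex hM hi hRc))) hL a ha).1
    rw [inf_relIndex_right]
    obtain ⟨i, -, hi'⟩ := (Nat.dvd_prime_pow hp.out).1 (hj ▸ relIndex_dvd_card M U)
    have h1 := relIndex_le_of_le_right (H := M) hUR (hi ▸ hp.out.ne_zero)
    rw [hi, hi'] at h1
    have h2 : i ≠ 0 := fun e => hUM (relIndex_eq_one.1 (by rw [hi', e, pow_zero]))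
    have h3 := (Nat.pow_le_pow_iff_right hp.out.one_lt).1 (h1.trans (pow_one p).ge)
    rw [hi', show i = 1 by omega, pow_one]
  have key := alperin_induction' (isSylowIn_top P) (fun A g => ∀ a ∈ A, g * a * g⁻¹ * a⁻¹ ∈ Φ)
    (fun A B g hAB hB a ha => hB a (hAB ha))
    (fun A g l h1 h2 a ha => by
      have := mul_mem (h2 _ (conj_mem_cj.2 ha)) (h1 a ha)
      rwa [show l * (g * a * g⁻¹) * l⁻¹ * (g * a * g⁻¹)⁻¹ * (g * a * g⁻¹ * a⁻¹) =
        l * g * a * (l * g)⁻¹ * a⁻¹ by group] at this)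
    (fun U hU hfn _ n hn => by
      let K : Subgroup (normalizer (U : Set G)) :=
        { carrier := {g | ∀ r ∈ U, g * r * (g : G)⁻¹ * r⁻¹ ∈ Φ}
          one_mem' := fun r _ => by simp
          mul_mem' := fun {a b} ha hb r hr => by
            have := mul_mem (ha _ (mem_normalizer_conj b.2 hr)) (hb r hr)
            rwa [show a * (b * r * (b : G)⁻¹) * (a : G)⁻¹ * (b * r * (b : G)⁻¹)⁻¹ *
              (b * r * (b : G)⁻¹ * r⁻¹) = (a * b : G) * r * (a * b : G)⁻¹ * r⁻¹ by group] at this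
          inv_mem' := fun {a} ha r hr => by
            have := inv_mem (ha _ (mem_normalizer_conj' a.2 hr))
            rwa [show (a * ((a : G)⁻¹ * r * a) * (a : G)⁻¹ * ((a : G)⁻¹ * r * a)⁻¹)⁻¹ =
              (a : G)⁻¹ * r * (a : G)⁻¹⁻¹ * r⁻¹ by group] at this }
      have hS := fullyNorm_top_iff'.1 hfn
      have hK : K = ⊤ := by
        rw [eq_top_iff, ← pResidual_sup_sylow hS.toSylow]
        refine sup_le (pResidual_le_iff_forall.2 fun g hg =>
          loc U hU g g.2 (by rwa [Subgroup.orderOf_coe])) fun g hg r hr => ?_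
        exact Solv.commutator_le_map_frattini P.isPGroup'
          (commutator_mem_commutator (mem_subgroupOf.1 hg).1 (hU hr))
      exact (hK.ge (mem_top (⟨n, hn.2⟩ : normalizer (U : Set G))) :))
  refine hasNormalPComplement_of_pResidual_inf_le_frattini P
    (pResidual_inf_sylow_le P fun x hx u _ hu => ?_)
  have hx2 : x ∈ (P : Subgroup G) := hx.2
  have h1 : u * x⁻¹ * u⁻¹ ∈ (P : Subgroup G) := by
    have := mul_mem (inv_mem hx2) hu
    rwa [commutatorElement_def, show x⁻¹ * (x * u * x⁻¹ * u⁻¹) = u * x⁻¹ * u⁻¹ by group] at this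
  have h2 := key (zpowers x⁻¹) (zpowers_le.2 (inv_mem hx2)) u trivial
    (by rw [cj_zpowers]; exact zpowers_le.2 h1) _ (mem_zpowers _)
  have h3 := mem_normalizer_conj
    (Solv.normalizer_le_normalizer_frattini (P : Subgroup G) (le_normalizer hx.2)) h2
  rw [commutatorElement_def]
  rwa [show x * (u * x⁻¹ * u⁻¹ * x⁻¹⁻¹) * x⁻¹ = x * u * x⁻¹ * u⁻¹ by group] at h3

theorem coprime_sub_one_of_min {n : ℕ} (h : ∀ q : ℕ, q.Prime → q ∣ n → p ≤ q) :
    n.Coprime (p - 1) := by
  refine Nat.coprime_of_dvd fun q hq h1 h2 => ?_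
  have := Nat.le_of_dvd (Nat.sub_pos_of_lt hp.out.one_lt) h2
  have := h q hq h1
  have := hp.out.one_lt
  omega

theorem exists_exp {D P : Subgroup G} (hP : IsPGroup p P) (hD : D ≤ P) (h1 : 1 < Nat.card D)
    (h2 : Nat.card D < Nat.card P) :
    ∃ k, 1 ≤ k ∧ Nat.card D = p ^ k ∧ p ^ (k + 1) ∣ Nat.card P := by
  obtain ⟨k, hk⟩ := IsPGroup.iff_card.1 (hP.to_le hD)
  obtain ⟨n, hn⟩ := IsPGroup.iff_card.1 hP
  rw [hk] at h1 h2
  rw [hn] at h2
  refine ⟨k, Nat.pos_of_ne_zero (by rintro rfl; simp at h1), hk, ?_⟩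
  rw [hn]
  exact pow_dvd_pow p ((Nat.pow_lt_pow_iff_right hp.out.one_lt).1 h2)

end

/-- A normal `p`-subgroup on which an extension of a `p`-group by an abelian group of exponent
dividing `p - 1` is induced has cyclic chief factors. -/
theorem cycChain_of_cent {p : ℕ} [hp : Fact p.Prime] (G : Type u) [Group G] [Finite G] :
    ∀ (N U : Subgroup G), N.Normal → U.Normal → IsPGroup p N → commutator G ≤ U →
      (∀ g : G, g ^ (p - 1) ∈ U) →
      (∀ x ∈ U, (orderOf x).Coprime p → x ∈ centralizer (N : Set G)) → Solv.CycChain N := by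
  refine Solv.card_induction (P := fun G _ _ => ∀ (N U : Subgroup G), N.Normal → U.Normal →
    IsPGroup p N → commutator G ≤ U → (∀ g : G, g ^ (p - 1) ∈ U) →
      (∀ x ∈ U, (orderOf x).Coprime p → x ∈ centralizer (N : Set G)) → Solv.CycChain N) ?_ G
  intro G _ _ ih N U hN hU hNp h1 h2 h3
  by_cases hN1 : N = ⊥
  · rw [hN1]; exact Solv.CycChain.bot
  obtain ⟨V, hV, hVN⟩ := Solv.exists_isMinNormal_le N hN1
  have := hV.normal
  have hVp := hNp.to_le hVN
  have hUV : U ≤ centralizer (V : Set G) := by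
    obtain ⟨T, hT⟩ := exists_isSylowIn (p := p) U
    rw [le_centralizer_iff]
    refine hV.le_of_inf_ne_bot fun e => Solv.PG.inf_centralizer_ne_bot hT.isPGroup hVp
      (by rw [normalizer_eq_top]; exact le_top) hV.ne_bot (eq_bot_iff.2 (le_trans ?_ e.le))
    refine fun v hv => ⟨hv.1, fun u hu => ?_⟩
    have : (⊤ : Subgroup U) ≤ (centralizer {v}).subgroupOf U := by
      rw [← pResidual_sup_sylow hT.toSylow]
      refine sup_le (pResidual_le_iff_forall.2 fun g hg => ?_) fun g hg => ?_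
      · exact mem_centralizer_singleton_iff.2
          (h3 g g.2 (by rwa [Subgroup.orderOf_coe]) v (hVN hv.1)).symm
      · exact mem_centralizer_singleton_iff.2 (hv.2 _ (mem_subgroupOf.1 hg))
    exact mem_centralizer_singleton_iff.1 (this (mem_top (⟨u, hu⟩ : U)))
  have hVc := hV.isCyclic_of_comm_of_pow hVp (h1.trans hUV) fun g => hUV (h2 g)
  have hs := QuotientGroup.mk'_surjective V
  refine Solv.CycChain.of_map_mk' (Solv.CycChain.of_isCyclic V) (ih (G ⧸ V)
    (Solv.card_quotient_lt hV.ne_bot) _ (U.map (QuotientGroup.mk' V)) (hN.map _ hs) (hU.map _ hs)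
    (hNp.map _) ?_ (fun g => ?_) ?_)
  · rw [commutator_def, ← map_top_of_surjective _ hs, ← map_commutator]
    exact map_mono h1
  · obtain ⟨g, rfl⟩ := hs g
    exact ⟨_, h2 g, map_pow _ _ _⟩
  · rintro _ ⟨x, hx, rfl⟩ hc
    obtain ⟨k, hk⟩ := exists_pow_orderOf_coprime (p := p) x
    refine mem_of_pow_mem_of_coprime (m := p ^ k) ?_ (hc.pow_right k)
    rintro _ ⟨n, hn, rfl⟩
    rw [← map_pow, ← map_mul, ← map_mul, h3 _ (pow_mem hx _) hk n hn]

theorem cycChain_of_closed {G : Type u} [Group G] [Finite G] {p : ℕ} [hp : Fact p.Prime]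
    {P : Subgroup G} (hP : IsPGroup p P) {k : ℕ} (hk1 : 1 ≤ k) (hc : p ^ (k + 1) ∣ Nat.card P)
    (h : ∀ E ≤ P, (Nat.card E = p ^ k ∨ (p ^ k = 2 ∧ Nat.card E = 4)) →
      normalizer (P : Set G) ≤ normalizer (E : Set G)) :
    Solv.CycChain (P.subgroupOf (normalizer (P : Set G))) :=
  cycChain_of_cent _ _ (Solv.unitsResidual p _) inferInstance inferInstance
    (isPGroup_subgroupOf hP _) (Solv.commutator_le_unitsResidual p)
    (Solv.pow_mem_unitsResidual p) fun x hx ho y hy => Subtype.ext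
      ((tv_of_mem hx).cent_all x.2 (by rwa [Subgroup.orderOf_coe]) hP x.2 hk1 hc h y hy)

end Cfsg.Lib.HSub
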