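/- A group of additive automorphisms of the natural `SL₂(F)`-module containing `SL₂(F)`: semilinearity of the
normaliser and the transvection groups. -/
import Cfsg.Agent.Chev.CoreSL2

namespace Cfsg.Lib.NatSyl

open Cfsg.Lib.Chev.Core Matrix Subgroup
open scoped Pointwise

variable {F : Type*} [Field F] {Γ : Type*} [Group Γ] [DistribMulAction Γ (Fin 2 → F)]

/-- The group `Γ` acts faithfully on `F²`, and `θ` realises the natural action of `SL₂(F)`. -/
structure NatAct (θ : SpecialLinearGroup (Fin 2) F →* Γ) : Prop where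
  faith : ∀ g : Γ, (∀ w : Fin 2 → F, g • w = w) → g = 1
  act : ∀ (s : SpecialLinearGroup (Fin 2) F) (w : Fin 2 → F), θ s • w = s.1 *ᵥ w

/-- The first coordinate line. -/
def line (F : Type*) [Field F] : AddSubgroup (Fin 2 → F) where
  carrier := {w | w 1 = 0}
  add_mem' := by intro a b ha hb; simp_all
  zero_mem' := rfl
  neg_mem' := by intro a ha; simp_all

theorem mem_line {w : Fin 2 → F} : w ∈ line F ↔ w 1 = 0 := Iff.rfl

/-- The elements acting trivially on `D` and on the quotient by `D`. -/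
def Q (Γ : Type*) [Group Γ] [DistribMulAction Γ (Fin 2 → F)] (D : AddSubgroup (Fin 2 → F)) : Subgroup Γ where
  carrier := {g | (∀ w ∈ D, g • w = w) ∧ ∀ w, g • w - w ∈ D}
  one_mem' := ⟨fun w _ => one_smul _ _, fun w => by simp⟩
  mul_mem' := by
    rintro g h ⟨g1, g2⟩ ⟨h1, h2⟩
    refine ⟨fun w hw => by rw [mul_smul, h1 w hw, g1 w hw], fun w => ?_⟩
    have := D.add_mem (g2 (h • w)) (h2 w)
    rwa [sub_add_sub_cancel, ← mul_smul] at this
  inv_mem' := by
    rintro g ⟨g1, g2⟩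
    refine ⟨fun w hw => by rw [inv_smul_eq_iff, g1 w hw], fun w => ?_⟩
    have := D.neg_mem (g2 (g⁻¹ • w))
    rwa [smul_inv_smul, neg_sub] at this

theorem mem_Q {D : AddSubgroup (Fin 2 → F)} {g : Γ} :
    g ∈ Q Γ D ↔ (∀ w ∈ D, g • w = w) ∧ ∀ w, g • w - w ∈ D := Iff.rfl

theorem mem_smul {D : AddSubgroup (Fin 2 → F)} {g : Γ} {w : Fin 2 → F} : w ∈ g • D ↔ g⁻¹ • w ∈ D :=
  AddSubgroup.mem_pointwise_smul_iff_inv_smul_mem

theorem conj_mem_Q {D : AddSubgroup (Fin 2 → F)} {a : Γ} (ha : a ∈ Q Γ D) (g : Γ) :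
    g * a * g⁻¹ ∈ Q Γ (g • D) := by
  refine ⟨fun w hw => ?_, fun w => ?_⟩
  · rw [mul_smul, mul_smul, ha.1 _ (mem_smul.1 hw), smul_inv_smul]
  · rw [mem_smul, smul_sub, mul_smul, mul_smul, inv_smul_smul]
    exact ha.2 _

theorem pow_smul_of_mem_Q {D : AddSubgroup (Fin 2 → F)} {a : Γ} (ha : a ∈ Q Γ D) (w : Fin 2 → F) (n : ℕ) :
    a ^ n • w = w + n • (a • w - w) := by
  induction n with
  | zero => simp
  | succ n ih =>
    rw [pow_succ', mul_smul, ih, smul_add, ha.1 _ (D.nsmul_mem (ha.2 w) n), succ_nsmul]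
    abel

theorem sl2U_mulVec (t : F) (w : Fin 2 → F) : (sl2U t).1 *ᵥ w = w + (t * w 1) • ![1, 0] := by
  ext i
  fin_cases i <;> simp [sl2U, mulVec, dotProduct, Fin.sum_univ_two]

theorem sl2V_mulVec (t : F) (w : Fin 2 → F) : (sl2V t).1 *ᵥ w = w + (t * w 0) • ![0, 1] := by
  ext i
  fin_cases i <;> simp [sl2V, mulVec, dotProduct, Fin.sum_univ_two, add_comm]

theorem scalar_of_comm (f : (Fin 2 → F) →+ (Fin 2 → F))
    (hf : ∀ (s : SpecialLinearGroup (Fin 2) F) w, f (s.1 *ᵥ w) = s.1 *ᵥ f w) : ∃ k : F, ∀ w, f w = k • w := by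
  have h0 : ∀ t : F, f (t • ![1, 0]) = (t * f ![0, 1] 1) • ![1, 0] := fun t => by
    have := hf (sl2U t) ![0, 1]
    rw [sl2U_mulVec, sl2U_mulVec, map_add, add_right_inj] at this
    simpa using this
  have h1 : ∀ t : F, f (t • ![0, 1]) = (t * f ![1, 0] 0) • ![0, 1] := fun t => by
    have := hf (sl2V t) ![1, 0]
    rw [sl2V_mulVec, sl2V_mulVec, map_add, add_right_inj] at this
    simpa using this
  have h2 : f ![1, 0] 0 = f ![0, 1] 1 := by
    have := congrFun (h0 1) 0
    simpa using this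
  refine ⟨f ![0, 1] 1, fun w => ?_⟩
  have hw : w = w 0 • ![1, 0] + w 1 • ![0, 1] := by
    ext i
    fin_cases i <;> simp
  conv_lhs => rw [hw, map_add, h0, h1, h2]
  ext i
  fin_cases i <;> simp [mul_comm]

variable {θ : SpecialLinearGroup (Fin 2) F →* Γ}

theorem NatAct.eq_of_smul (H : NatAct θ) {g h : Γ} (e : ∀ w : Fin 2 → F, g • w = h • w) : g = h := by
  have := H.faith (h⁻¹ * g) fun w => by rw [mul_smul, e, inv_smul_smul]
  rwa [inv_mul_eq_one, eq_comm] at this

theorem NatAct.injective (H : NatAct θ) : Function.Injective θ := by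
  rw [injective_iff_map_eq_one]
  intro s hs
  have h : ∀ w : Fin 2 → F, s.1 *ᵥ w = w := fun w => by rw [← H.act, hs, one_smul]
  have h0 := h ![1, 0]
  have h1 := h ![0, 1]
  apply sl2_ext
  · simpa [mulVec, dotProduct, Fin.sum_univ_two] using congrFun h0 0
  · simpa [mulVec, dotProduct, Fin.sum_univ_two] using congrFun h1 0
  · simpa [mulVec, dotProduct, Fin.sum_univ_two] using congrFun h0 1
  · simpa [mulVec, dotProduct, Fin.sum_univ_two] using congrFun h1 1

theorem NatAct.isPGroup_Q (H : NatAct θ) (p : ℕ) [CharP F p] (D : AddSubgroup (Fin 2 → F)) :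
    IsPGroup p (Q Γ D) := by
  rintro ⟨a, ha⟩
  refine ⟨1, Subtype.ext (H.faith _ fun w => ?_)⟩
  have : ∀ v : Fin 2 → F, p • v = 0 := fun v => by
    ext i
    simp
  simp only [pow_one, SubgroupClass.coe_pow]
  rw [pow_smul_of_mem_Q ha, this, add_zero]

theorem NatAct.sl2U_mem (H : NatAct θ) (t : F) : θ (sl2U t) ∈ Q Γ (line F) := by
  refine ⟨fun w hw => ?_, fun w => ?_⟩
  · rw [H.act, sl2U_mulVec, mem_line.1 hw]
    simp
  · rw [H.act, sl2U_mulVec, mem_line, add_sub_cancel_left]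
    simp

/-- An element centralising `SL₂(F)` is a scalar. -/
theorem NatAct.scalar (H : NatAct θ) {z : Γ} (hz : ∀ s, z * θ s = θ s * z) :
    ∃ k : F, ∀ w : Fin 2 → F, z • w = k • w :=
  scalar_of_comm (DistribSMul.toAddMonoidHom _ z) fun s w => by
    simp only [DistribSMul.toAddMonoidHom_apply]
    rw [← H.act, ← H.act, ← mul_smul, hz, mul_smul]

/-- The normaliser of `SL₂(F)` acts semilinearly. -/
theorem NatAct.semilinear (H : NatAct θ) {t : Γ} (ht : t ∈ normalizer (θ.range : Set Γ)) :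
    ∃ σ : F →+* F, ∀ (c : F) (w : Fin 2 → F), t • (c • w) = σ c • (t • w) := by
  have key : ∀ c : F, ∃ k : F, ∀ w : Fin 2 → F, t • (c • w) = k • (t • w) := fun c => by
    obtain ⟨k, hk⟩ := scalar_of_comm (F := F)
      { toFun := fun w => t • (c • (t⁻¹ • w))
        map_zero' := by rw [smul_zero, smul_zero, smul_zero]
        map_add' := fun a b => by rw [smul_add, smul_add, smul_add] } (fun s w => by
      obtain ⟨s', hs'⟩ : t⁻¹ * θ s * t⁻¹⁻¹ ∈ θ.range :=
        (mem_normalizer_iff.1 (inv_mem ht) _).1 ⟨s, rfl⟩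
      have e1 : ∀ v : Fin 2 → F, t⁻¹ • (s.1 *ᵥ v) = s'.1 *ᵥ (t⁻¹ • v) := fun v => by
        rw [← H.act, ← H.act, hs', ← mul_smul, ← mul_smul]
        simp
      simp only [AddMonoidHom.coe_mk, ZeroHom.coe_mk]
      rw [e1, ← mulVec_smul, smul_eq_iff_eq_inv_smul, e1, inv_smul_smul])
    exact ⟨k, fun w => by simpa using hk (t • w)⟩
  choose σ hσ using key
  have ext : ∀ a b : F, a • (t • (t⁻¹ • (![1, 0] : Fin 2 → F))) = b • (t • (t⁻¹ • (![1, 0] : Fin 2 → F))) →
      a = b := fun a b h => by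
    simpa using congrFun h 0
  refine ⟨{ toFun := σ
            map_one' := ext _ _ (by rw [← hσ, one_smul, one_smul])
            map_mul' := fun a b => ext _ _ (by rw [← hσ, mul_smul, mul_smul, hσ, hσ])
            map_zero' := ext _ _ (by rw [← hσ, zero_smul, zero_smul, smul_zero])
            map_add' := fun a b => ext _ _ (by rw [← hσ, add_smul, add_smul, smul_add, hσ, hσ]) }, hσ⟩

/-- A linear `p`-element lies in `SL₂(F)`. -/
theorem NatAct.mem_range (H : NatAct θ) (p : ℕ) [hp : Fact p.Prime] [CharP F p] {t : Γ} {k : ℕ}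
    (hk : t ^ p ^ k = 1) (ht : ∀ (c : F) (w : Fin 2 → F), t • (c • w) = c • (t • w)) : t ∈ θ.range := by
  let φ : (Fin 2 → F) →ₗ[F] (Fin 2 → F) :=
    { toFun := fun w => t • w
      map_add' := fun a b => smul_add _ _ _
      map_smul' := ht }
  have h1 : ∀ (n : ℕ) w, (φ ^ n) w = t ^ n • w := fun n => by
    induction n with
    | zero => simp
    | succ n ih => intro w; rw [pow_succ, pow_succ, Module.End.mul_apply, ih, mul_smul]; rfl
  have h2 : φ ^ p ^ k = 1 := LinearMap.ext fun w => by rw [h1, hk, one_smul]; rfl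
  have h3 : LinearMap.det φ ^ p ^ k = 1 := by rw [← map_pow, h2, map_one]
  have h4 : LinearMap.det φ = 1 := by
    have : (LinearMap.det φ - 1) ^ p ^ k = 0 := by rw [sub_pow_char_pow, h3, one_pow, sub_self]
    exact sub_eq_zero.1 (pow_eq_zero_iff (pow_ne_zero _ hp.out.ne_zero) |>.1 this)
  refine ⟨⟨LinearMap.toMatrix' φ, by rw [LinearMap.det_toMatrix', h4]⟩, H.eq_of_smul fun w => ?_⟩
  exact (H.act _ _).trans (LinearMap.toMatrix'_mulVec φ w)

end Cfsg.Lib.NatSyl
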