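/- The transvection groups of a natural `SL₂(F)` whose normaliser contains a Sylow subgroup: weak closure, and
the dichotomy between normality and the field with four elements. -/
import Cfsg.Agent.Local.NatSylA

namespace Cfsg.Lib.NatSyl

open Cfsg.Lib.Chev.Core Matrix Subgroup
open scoped Pointwise

variable {F : Type*} [Field F] {Γ : Type*} [Group Γ] [DistribMulAction Γ (Fin 2 → F)]
variable {θ : SpecialLinearGroup (Fin 2) F →* Γ}

theorem NatAct.exists_sylow (H : NatAct θ) [Finite Γ] (p : ℕ) [hp : Fact p.Prime] [CharP F p]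
    (hind : ¬ p ∣ (normalizer (θ.range : Set Γ)).index) :
    ∃ T : Sylow p Γ, (T : Subgroup Γ) ≤ normalizer (θ.range : Set Γ) ∧ ∀ t, θ (sl2U t) ∈ T := by
  set N := normalizer (θ.range : Set Γ)
  have h1 : IsPGroup p ((Q Γ (line F)).subgroupOf N) := (H.isPGroup_Q p _).comap_subtype
  obtain ⟨P, hP⟩ := h1.exists_le_sylow
  have h2 : IsPGroup p ((P : Subgroup N).map N.subtype) := P.isPGroup'.map _
  have h3 : ¬ p ∣ ((P : Subgroup N).map N.subtype).index := by
    rw [index_map_subtype]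
    intro h
    rcases (Nat.Prime.dvd_mul hp.out).1 h with h | h
    · exact P.not_dvd_index h
    · exact hind h
  refine ⟨h2.toSylow h3, map_subtype_le _, fun t => ?_⟩
  exact ⟨⟨θ (sl2U t), le_normalizer ⟨_, rfl⟩⟩, hP (H.sl2U_mem t), rfl⟩

/-- The standing configuration. -/
structure Cfg (θ : SpecialLinearGroup (Fin 2) F →* Γ) (p : ℕ) (T : Sylow p Γ) : Prop extends NatAct θ where
  le : (T : Subgroup Γ) ≤ normalizer (θ.range : Set Γ)
  mem : ∀ t, θ (sl2U t) ∈ T

variable [Finite Γ] [Fintype F] {p : ℕ} [hp : Fact p.Prime] [CharP F p] {T : Sylow p Γ}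

theorem eq_smul_of_line {u w : Fin 2 → F} (hu : u ≠ 0) (hu1 : u 1 = 0) (hw : w 1 = 0) : ∃ c : F, w = c • u := by
  have h0 : u 0 ≠ 0 := fun h => hu (by
    ext i
    fin_cases i <;> simp [h, hu1])
  refine ⟨w 0 / u 0, ?_⟩
  ext i
  fin_cases i
  · simp [h0]
  · simp [hw, hu1]

theorem Cfg.exists_fixed (H : Cfg θ p T) : ∃ u : Fin 2 → F, u ≠ 0 ∧ u 1 = 0 ∧ ∀ t ∈ T, t • u = u := by
  have h1 : p ∣ Nat.card (Fin 2 → F) := by
    obtain ⟨n, -, hn⟩ := FiniteField.card F p
    rw [Nat.card_fun, Nat.card_eq_fintype_card, hn]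
    exact dvd_pow (dvd_pow_self _ n.ne_zero) (by simp)
  obtain ⟨u, hu, h0⟩ := T.isPGroup'.exists_fixed_point_of_prime_dvd_card_of_fixed_point (Fin 2 → F) h1
    (a := 0) (fun t => smul_zero _)
  have hu' : ∀ t ∈ T, t • u = u := fun t ht => hu ⟨t, ht⟩
  refine ⟨u, h0.symm, ?_, hu'⟩
  have := hu' _ (H.mem 1)
  rw [H.act, sl2U_mulVec, add_eq_left] at this
  simpa using congrFun this 0

theorem Cfg.eq_sl2U (H : Cfg θ p T) {t : Γ} (ht : t ∈ T) (h : ∀ w : Fin 2 → F, w 1 = 0 → t • w = w) :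
    ∃ c, t = θ (sl2U c) := by
  obtain ⟨σ, hσ⟩ := H.semilinear (H.le ht)
  have h1 : ∀ c, σ c = c := fun c => by
    have := hσ c ![1, 0]
    rw [h _ (by simp), h _ (by simp)] at this
    simpa using (congrFun this 0).symm
  obtain ⟨k, hk⟩ := T.isPGroup' ⟨t, ht⟩
  obtain ⟨s, rfl⟩ := H.mem_range p (congrArg Subtype.val hk) fun c w => by rw [hσ, h1]
  have h2 := h ![1, 0] (by simp)
  rw [H.act] at h2
  have h00 : s 0 0 = 1 := by simpa [mulVec, dotProduct, Fin.sum_univ_two] using congrFun h2 0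
  have h10 : s 1 0 = 0 := by simpa [mulVec, dotProduct, Fin.sum_univ_two] using congrFun h2 1
  have h11 : s 1 1 = 1 := by simpa [h00, h10] using sl2_det s
  refine ⟨s 0 1, congrArg θ ?_⟩
  apply sl2_ext <;> simp [sl2U, h00, h10, h11]

theorem NatAct.mem_line_of_fix (H : NatAct θ) {c : F} (hc : c ≠ 0) {w : Fin 2 → F} (h : θ (sl2U c) • w = w) :
    w ∈ line F := by
  rw [H.act, sl2U_mulVec, add_eq_left] at h
  simpa [hc, mem_line] using congrFun h 0

theorem sl2U_zero : sl2U (0 : F) = 1 := by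
  apply sl2_ext <;> simp [sl2U]

theorem sl2U_add (a b : F) : sl2U (a + b) = sl2U a * sl2U b := by
  apply sl2_ext <;> simp only [sl2_mul_apply] <;> simp [sl2U, add_comm]

/-- Weak closure of the transvection group. -/
theorem Cfg.smul_line (H : Cfg θ p T) {h : Γ} (hh : ∀ c, h * θ (sl2U c) * h⁻¹ ∈ T) : h • line F = line F := by
  classical
  obtain ⟨u, hu, hu1, huT⟩ := H.exists_fixed
  obtain ⟨γ, hγ⟩ := IsCyclic.exists_generator (α := Fˣ)
  choose σ hσ using fun c => H.semilinear (H.le (hh c))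
  obtain ⟨a, b, hab, e⟩ := Fintype.exists_ne_map_eq_of_card_lt
    (fun c : F => Units.map (σ c : F →* F) γ) (by rw [Fintype.card_units]; exact Nat.sub_lt Fintype.card_pos one_pos)
  have e1 : σ a γ = σ b γ := congrArg Units.val e
  have hc : a - b ≠ 0 := sub_ne_zero.2 hab
  have e2 : σ (a - b) γ = γ := by
    have h1 : h * θ (sl2U b) * h⁻¹ * (h * θ (sl2U (a - b)) * h⁻¹) = h * θ (sl2U a) * h⁻¹ := by
      conv_rhs => rw [← add_sub_cancel b a, sl2U_add, map_mul]
      group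
    have h2 : (h * θ (sl2U a) * h⁻¹) • ((γ : F) • u) = (h * θ (sl2U b) * h⁻¹) • ((γ : F) • u) := by
      rw [hσ, hσ, huT _ (hh a), huT _ (hh b), e1]
    rw [← h1, mul_smul, smul_left_cancel_iff, hσ, huT _ (hh _)] at h2
    exact smul_left_injective F hu h2
  have e3 : ∀ c, σ (a - b) c = c := fun c => by
    by_cases h0 : c = 0
    · simp [h0]
    · obtain ⟨n, hn⟩ := (mem_powers_iff_mem_zpowers.2 (hγ (Units.mk0 c h0)))
      have : c = (γ : F) ^ n := by simpa using (congrArg Units.val hn).symm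
      rw [this, map_pow, e2]
  obtain ⟨d, hd⟩ := H.eq_sl2U (hh (a - b)) fun w hw => by
    obtain ⟨c, rfl⟩ := eq_smul_of_line hu hu1 hw
    rw [hσ, e3, huT _ (hh _)]
  have hd0 : d ≠ 0 := by
    rintro rfl
    rw [sl2U_zero, map_one, mul_inv_eq_one, mul_eq_left, ← map_one θ] at hd
    have := congrArg (fun s : SpecialLinearGroup (Fin 2) F => s 0 1) (H.injective hd)
    exact hc (by simpa [sl2U] using this)
  ext w
  rw [mem_smul]
  constructor
  · intro hw
    refine H.mem_line_of_fix hd0 ?_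
    rw [← hd, mul_smul, mul_smul, (H.sl2U_mem _).1 _ hw, smul_inv_smul]
  · intro hw
    refine H.mem_line_of_fix hc ?_
    have := (H.sl2U_mem d).1 _ hw
    rwa [← hd, mul_smul, mul_smul, smul_eq_iff_eq_inv_smul] at this

theorem exists_conj_le (T : Sylow p Γ) {P : Subgroup Γ} (hP : IsPGroup p P) : ∃ g : Γ, ∀ x ∈ P, g * x * g⁻¹ ∈ T := by
  obtain ⟨S, hS⟩ := hP.exists_le_sylow
  obtain ⟨g, rfl⟩ := MulAction.exists_smul_eq Γ S T
  exact ⟨g, fun x hx => ⟨x, hS hx, rfl⟩⟩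

theorem Cfg.eq_of_mem_Q (H : Cfg θ p T) {a : Γ} (ha : a ∈ Q Γ (line F)) : ∃ c, a = θ (sl2U c) := by
  obtain ⟨g, hg⟩ := exists_conj_le T (H.isPGroup_Q p (line F))
  have h1 : g • line F = line F := H.smul_line fun c => hg _ (H.sl2U_mem c)
  have h2 := conj_mem_Q ha g⁻¹
  rw [inv_smul_eq_iff.2 h1.symm] at h2
  have h3 := hg _ h2
  refine H.eq_sl2U ?_ ha.1
  simpa [mul_assoc] using h3

/-- The images of the first coordinate line. -/
def Axis (Γ : Type*) [Group Γ] [DistribMulAction Γ (Fin 2 → F)] (D : AddSubgroup (Fin 2 → F)) : Prop :=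
  ∃ h : Γ, D = h • line F

omit [Finite Γ] [Fintype F] in
theorem Axis.smul {D : AddSubgroup (Fin 2 → F)} (hD : Axis Γ D) (g : Γ) : Axis Γ (g • D) := by
  obtain ⟨h, rfl⟩ := hD
  exact ⟨g * h, (mul_smul _ _ _).symm⟩

omit [Finite Γ] [Fintype F] in
theorem axis_line : Axis Γ (line F) := ⟨1, (one_smul _ _).symm⟩

omit [Finite Γ] [Fintype F] in
theorem card_smul (g : Γ) (D : AddSubgroup (Fin 2 → F)) : Nat.card (g • D : AddSubgroup (Fin 2 → F)) = Nat.card D :=
  (Nat.card_congr (D.equivMapOfInjective (DistribSMul.toAddMonoidHom _ g)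
    (MulAction.injective g)).toEquiv).symm

theorem Cfg.mem_of_fix (H : Cfg θ p T) {D : AddSubgroup (Fin 2 → F)} (hD : Axis Γ D) {a : Γ} (ha : a ∈ Q Γ D)
    (h1 : a ≠ 1) {w : Fin 2 → F} (hw : a • w = w) : w ∈ D := by
  obtain ⟨h, rfl⟩ := hD
  have h2 := conj_mem_Q ha h⁻¹
  rw [inv_smul_smul] at h2
  obtain ⟨c, hc⟩ := H.eq_of_mem_Q h2
  have hc0 : c ≠ 0 := by
    rintro rfl
    rw [sl2U_zero, map_one, mul_inv_eq_one, mul_eq_left] at hc
    exact h1 hc
  rw [mem_smul]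
  refine H.mem_line_of_fix hc0 ?_
  rw [← hc, mul_smul, mul_smul, inv_inv, smul_inv_smul, hw]

omit [Finite Γ] [Fintype F] in
theorem NatAct.exists_mem_Q (H : NatAct θ) {D : AddSubgroup (Fin 2 → F)} (hD : Axis Γ D) {w d : Fin 2 → F}
    (hw : w ∉ D) (hd : d ∈ D) : ∃ a ∈ Q Γ D, a • w = w + d := by
  obtain ⟨h, rfl⟩ := hD
  rw [mem_smul, mem_line] at hw hd
  refine ⟨_, conj_mem_Q (H.sl2U_mem ((h⁻¹ • d) 0 / (h⁻¹ • w) 1)) h, ?_⟩
  rw [mul_smul, mul_smul, H.act, sl2U_mulVec, div_mul_cancel₀ _ hw, smul_eq_iff_eq_inv_smul, smul_add,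
    add_right_inj]
  ext i
  fin_cases i
  · simp
  · simp [hd]

theorem Cfg.exists_conj (H : Cfg θ p T) {E : AddSubgroup (Fin 2 → F)} (hE : Axis Γ E) {P : Subgroup Γ}
    (hP : IsPGroup p P) (hPE : ∀ x ∈ P, x • E = E) : ∃ g : Γ, g • E = line F ∧ ∀ x ∈ P, g * x * g⁻¹ ∈ T := by
  have h1 : P ≤ normalizer (Q Γ E : Set Γ) := fun x hx => by
    refine mem_normalizer_fintype fun a ha => ?_
    have := conj_mem_Q ha x
    rwa [hPE x hx] at this
  obtain ⟨g, hg⟩ := exists_conj_le T (hP.to_sup_of_normal_right' (H.isPGroup_Q p E) h1)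
  refine ⟨g, ?_, fun x hx => hg x (mem_sup_left hx)⟩
  obtain ⟨h, rfl⟩ := hE
  rw [← mul_smul]
  refine H.smul_line fun c => ?_
  have := hg _ (mem_sup_right (conj_mem_Q (H.sl2U_mem c) h))
  simpa [mul_assoc] using this

/-- Two distinct axes with a largest nontrivial intersection force the field with four elements. -/
theorem Cfg.four_of_max (H : Cfg θ p T) {D : AddSubgroup (Fin 2 → F)} (hD : Axis Γ D) (hne : D ≠ line F)
    (hbot : D ⊓ line F ≠ ⊥) (hP : ∀ a ∈ Q Γ D, a • line F = line F → a ∈ T)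
    (hmax : ∀ D' E' : AddSubgroup (Fin 2 → F), Axis Γ D' → Axis Γ E' → D' ≠ E' →
      Nat.card ↥(D' ⊓ E') ≤ Nat.card ↥(D ⊓ line F)) :
    Fintype.card F = 4 ∧ (2 : F) = 0 ∧ ∃ a ∈ T, a ∉ Q Γ (line F) := by
  classical
  obtain ⟨⟨u, huD, hu1⟩, hu⟩ := (AddSubgroup.ne_bot_iff_exists_ne_zero).1 hbot
  have hu0 : u ≠ 0 := fun h => hu (Subtype.ext h)
  obtain ⟨w, hw1, hwD⟩ : ∃ w, w ∈ line F ∧ w ∉ D := by
    by_contra! hcon
    obtain ⟨h, rfl⟩ := hD
    exact hne (AddSubgroup.eq_of_le_of_card_ge hcon (card_smul h _).le).symm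
  obtain ⟨x, rfl⟩ := eq_smul_of_line hu0 hu1 hw1
  have hline : ∀ c : F, c • u ∈ line F := fun c => by
    rw [mem_line, Pi.smul_apply, mem_line.1 hu1, smul_zero]
  have key : ∀ δ : F, δ • u ∈ D → ∃ a ∈ T, a • (x • u) = x • u + δ • u ∧ ∃ σ : F →+* F, σ x = x + δ ∧
      (∀ c, (σ c - c) • u ∈ D) ∧ (∀ c, c • u ∈ D → σ c = c) ∧ (δ ≠ 0 → ∀ c, σ c = c → c • u ∈ D) := by
    intro δ hδ
    obtain ⟨a, ha, haw⟩ := H.exists_mem_Q hD hwD hδ
    have haE : a • line F = line F := by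
      by_contra hcon
      have h1 := hmax _ _ (axis_line.smul a) axis_line hcon
      have h2 : D ⊓ line F ≤ a • line F ⊓ line F := fun v hv =>
        ⟨mem_smul.2 (by rw [(inv_mem ha).1 v hv.1]; exact hv.2), hv.2⟩
      have h3 := AddSubgroup.eq_of_le_of_card_ge h2 h1
      have h4 : x • u ∈ a • line F ⊓ line F := by
        refine ⟨mem_smul.2 ?_, hw1⟩
        have : a⁻¹ • (x • u) = x • u - δ • u := by
          rw [inv_smul_eq_iff, smul_sub, haw, ha.1 _ hδ, add_sub_cancel_right]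
        rw [this]
        exact sub_mem hw1 (hline δ)
      rw [← h3] at h4
      exact hwD h4.1
    have haT := hP a ha haE
    obtain ⟨σ, hσ⟩ := H.semilinear (H.le haT)
    have h1 : ∀ c : F, a • (c • u) = σ c • u := fun c => by rw [hσ, ha.1 u huD]
    refine ⟨a, haT, haw, σ, ?_, fun c => ?_, fun c hc => ?_, fun h0 c hc => ?_⟩
    · rw [h1, ← add_smul] at haw
      exact smul_left_injective F hu0 haw
    · rw [sub_smul, ← h1]
      exact ha.2 _
    · have := ha.1 _ hc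
      rw [h1] at this
      exact smul_left_injective F hu0 this
    · refine H.mem_of_fix hD ha ?_ (by rw [h1, hc])
      rintro rfl
      rw [one_smul, left_eq_add, smul_eq_zero] at haw
      exact haw.elim h0 hu0
  obtain ⟨a, haT, haw, σ, s1, s2, s3, s4⟩ := key 1 (by rwa [one_smul])
  have h2 : (2 : F) = 0 := by
    have := s3 _ (s2 (x ^ 2))
    simp only [map_sub, map_pow, map_add, map_one, s1] at this
    linear_combination this
  have hy : (x ^ 2 + x) • u ∈ D := s4 one_ne_zero _ (by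
    simp only [map_pow, map_add, s1]
    linear_combination (x + 1) * h2)
  have h01 : ∀ δ : F, δ • u ∈ D → δ = 0 ∨ δ = 1 := fun δ hδ => by
    obtain ⟨-, -, -, τ, t1, -, t3, -⟩ := key δ hδ
    have := t3 _ hy
    simp only [map_pow, map_add, t1] at this
    have h3 : δ * (δ - 1) = 0 := by linear_combination this - (x * δ + δ) * h2
    rcases mul_eq_zero.1 h3 with h | h
    · exact Or.inl h
    · exact Or.inr (sub_eq_zero.1 h)
  have hall : ∀ c : F, c ∈ ({0, 1, x, x + 1} : Finset F) := fun c => by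
    simp only [Finset.mem_insert, Finset.mem_singleton]
    rcases h01 _ (s2 c) with h | h
    · rcases h01 _ (s4 one_ne_zero c (sub_eq_zero.1 h)) with h | h
      · exact Or.inl h
      · exact Or.inr (Or.inl h)
    · rcases h01 _ (s4 one_ne_zero (c - x) (by rw [map_sub, s1]; linear_combination h)) with h | h
      · exact Or.inr (Or.inr (Or.inl (sub_eq_zero.1 h)))
      · exact Or.inr (Or.inr (Or.inr (by linear_combination h)))
  have hx0 : x ≠ 0 := by
    rintro rfl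
    exact hwD (by rw [zero_smul]; exact zero_mem _)
  have hx1 : x ≠ 1 := by
    rintro rfl
    exact hwD (by rwa [one_smul])
  refine ⟨?_, h2, a, haT, fun h => ?_⟩
  · rw [← Finset.card_univ, ← Finset.eq_univ_iff_forall.2 hall]
    have e1 : x + 1 ≠ 0 := fun h => hx1 (by linear_combination h - h2)
    rw [Finset.card_insert_of_notMem, Finset.card_insert_of_notMem, Finset.card_pair] <;>
      simp [hx0, hx0.symm, hx1.symm, e1.symm]
  · rw [h.1 _ hw1, left_eq_add, one_smul] at haw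
    exact hu0 haw

omit [Finite Γ] [Fintype F] in
theorem NatAct.exists_smul_eq (H : NatAct θ) {d : Fin 2 → F} (hd : d ≠ 0) : ∃ s, d ∈ θ s • line F := by
  by_cases h1 : d 1 = 0
  · exact ⟨1, by rwa [map_one, one_smul]⟩
  · refine ⟨(sl2W * sl2U (-(d 0 / d 1)))⁻¹, ?_⟩
    rw [mem_smul, map_inv, inv_inv, map_mul, mul_smul, H.act, H.act, sl2U_mulVec, mem_line]
    simp [sl2W, mulVec, dotProduct, Fin.sum_univ_two, h1]

omit [Finite Γ] [Fintype F] in
theorem normal_of_conj (h : ∀ (g : Γ) c, g * θ (sl2U c) * g⁻¹ ∈ θ.range) : θ.range.Normal := by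
  let K : Subgroup (SpecialLinearGroup (Fin 2) F) := θ.range.normalCore.comap θ
  have hK : K.Normal := inferInstance
  have hU : ∀ c, sl2U c ∈ K := fun c g => h g c
  have hV : ∀ c, sl2V c ∈ K := fun c => by
    have h1 : (sl2W * sl2W * sl2W : SpecialLinearGroup (Fin 2) F) = sl2W⁻¹ := by
      rw [eq_inv_iff_mul_eq_one]
      apply sl2_ext <;> simp only [sl2_mul_apply] <;> simp [sl2W]
    rw [sl2V_eq, h1]
    exact hK.conj_mem _ (hU _) _
  have hW : sl2W ∈ K := by
    rw [sl2W_eq]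
    exact K.mul_mem (K.mul_mem (hU _) (hV _)) (hU _)
  refine ⟨?_⟩
  rintro _ ⟨s, rfl⟩ g
  exact sl2_submonoid_eq_top K.toSubmonoid hU hW s g

/-- Either `SL₂(F)` is normal, or the field has four elements. -/
theorem Cfg.normal_or (H : Cfg θ p T) :
    θ.range.Normal ∨ (Fintype.card F = 4 ∧ (2 : F) = 0 ∧ ∃ a ∈ T, a ∉ Q Γ (line F)) := by
  classical
  by_cases hex : ∃ DE : AddSubgroup (Fin 2 → F) × AddSubgroup (Fin 2 → F),
      Axis Γ DE.1 ∧ Axis Γ DE.2 ∧ DE.1 ≠ DE.2 ∧ DE.1 ⊓ DE.2 ≠ ⊥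
  · right
    obtain ⟨⟨D, E⟩, ⟨hD, hE, hne, hbot⟩, hmax⟩ := Set.exists_max_image _
      (fun DE : AddSubgroup (Fin 2 → F) × AddSubgroup (Fin 2 → F) => Nat.card ↥(DE.1 ⊓ DE.2))
      (Set.toFinite _) hex
    obtain ⟨g, hg, hgP⟩ := H.exists_conj hE (P := Q Γ D ⊓ MulAction.stabilizer Γ E)
      (H.isPGroup_Q p D).to_inf_left fun x hx => hx.2
    have h1 : g • D ⊓ line F = g • (D ⊓ E) := by
      ext w
      rw [← hg, AddSubgroup.mem_inf, mem_smul, mem_smul, mem_smul, AddSubgroup.mem_inf]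
    refine H.four_of_max (hD.smul g) ?_ ?_ (fun a ha haE => ?_) fun D' E' hD' hE' hne' => ?_
    · rw [← hg]
      exact fun h => hne (MulAction.injective g h)
    · rw [h1]
      intro h
      apply hbot
      rw [← AddSubgroup.card_eq_one, card_smul] at h
      exact AddSubgroup.card_eq_one.1 h
    · have h2 := conj_mem_Q ha g⁻¹
      rw [inv_smul_smul] at h2
      have hg' : g • E = line F := hg
      have h3 := hgP _ ⟨h2, MulAction.mem_stabilizer_iff.2 (by
        rw [mul_smul, mul_smul, inv_inv, hg', haE, ← hg', inv_smul_smul])⟩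
      simpa [mul_assoc] using h3
    · rw [h1, card_smul]
      by_cases h0 : D' ⊓ E' = ⊥
      · rw [h0, AddSubgroup.card_bot]
        exact Nat.card_pos
      · exact hmax (D', E') ⟨hD', hE', hne', h0⟩
  · left
    refine normal_of_conj fun g c => ?_
    have hd : g • (![1, 0] : Fin 2 → F) ≠ 0 := by
      rw [Ne, smul_eq_zero_iff_eq]
      simp
    obtain ⟨s, hs⟩ := H.exists_smul_eq hd
    have h1 : g • line F = θ s • line F := by
      by_contra hne
      refine hex ⟨(_, _), axis_line.smul g, axis_line.smul (θ s), hne, fun h => hd ?_⟩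
      have : g • (![1, 0] : Fin 2 → F) ∈ g • line F ⊓ θ s • line F :=
        ⟨mem_smul.2 (by rw [inv_smul_smul, mem_line]; simp), hs⟩
      rwa [h, AddSubgroup.mem_bot] at this
    have h2 := conj_mem_Q (conj_mem_Q (H.sl2U_mem c) g) (θ s)⁻¹
    rw [h1, inv_smul_smul] at h2
    obtain ⟨d, hd⟩ := H.eq_of_mem_Q h2
    refine ⟨s * sl2U d * s⁻¹, ?_⟩
    rw [map_mul, map_mul, ← hd, map_inv]
    group

end Cfsg.Lib.NatSyl
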