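import Cfsg.Agent.Local.PGVTwo
import Cfsg.Agent.Trans.Component

/-!
The `P(G,V)`-theorem: reduction to the irreducible case.
-/

set_option autoImplicit false

open Subgroup

namespace Cfsg.Lib.PGV

universe v

theorem jj_sub {k : Type*} [Ring k] {V : Type*} [AddCommGroup V] [Module k V] [Finite V]
    {G : Type*} [Group G] [Finite G] {ρ : G →* Module.End k V} {A : Subgroup G}
    (hP : ∀ B ≤ A, jj ρ B ≤ jj ρ A) (W : Submodule k V) (ρ' : G →* Module.End k W)
    (h : ∀ g w, (ρ' g w : V) = ρ g w) : ∀ B ≤ A, jj ρ' B ≤ jj ρ' A := by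
  have key : ∀ B, Nat.card (fix ρ' B) = Nat.card (W ⊓ fix ρ B : Submodule k V) := fun B =>
    Nat.card_congr
      { toFun := fun w => ⟨w.1, w.1.2, fun b hb => by rw [← h, w.2 b hb]⟩
        invFun := fun w => ⟨⟨w.1, w.2.1⟩, fun b hb => Subtype.ext (by rw [h]; exact w.2.2 b hb)⟩
        left_inv := fun _ => rfl
        right_inv := fun _ => rfl }
  intro B hB
  have h1 := hP B hB
  have h2 := card_mul_le_sup_inf' (W ⊓ fix ρ B) (fix ρ A)
  have h3 := card_le_of_le (sup_le inf_le_right (fix_anti hB) : W ⊓ fix ρ B ⊔ fix ρ A ≤ fix ρ B)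
  have h4 := card_le_of_le
    (inf_le_inf_right _ inf_le_left : W ⊓ fix ρ B ⊓ fix ρ A ≤ W ⊓ fix ρ A)
  unfold jj at h1 ⊢
  rw [key, key]
  refine Nat.le_of_mul_le_mul_right ?_ (Nat.card_pos (α := fix ρ A))
  calc _ = Nat.card B * (Nat.card (W ⊓ fix ρ B : Submodule k V) * Nat.card (fix ρ A)) := by ring
    _ ≤ Nat.card B * (Nat.card (fix ρ B) * Nat.card (W ⊓ fix ρ A : Submodule k V)) :=
      Nat.mul_le_mul_left _ (h2.trans (Nat.mul_le_mul h3 h4))
    _ = Nat.card B * Nat.card (fix ρ B) * Nat.card (W ⊓ fix ρ A : Submodule k V) := by ring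
    _ ≤ _ := Nat.mul_le_mul_right _ h1
    _ = _ := by ring

theorem main {G : Type*} [Group G] [Finite G] (p : ℕ) [hp : Fact p.Prime] {K A : Subgroup G}
    (hKA : K ⊔ A = ⊤) (qs : QS K) (comm : ∀ a ∈ A, ∀ b ∈ A, a * b = b * a)
    (hA : ∀ a ∈ A, a ^ p = 1)
    (dich : ∀ a ∈ A, a ∈ normalizer (K : Set G) ∨ ∀ x ∈ K, ∀ y ∈ K, Commute (a * x * a⁻¹) y)
    {a : G} (ha : a ∈ A) (han : a ∉ normalizer (K : Set G)) (n : ℕ) :
    ∀ (V : Type v) [AddCommGroup V] [Module (ZMod p) V] [Finite V]
      (ρ : G →* Module.End (ZMod p) V), Nat.card V = n → (∀ B ≤ A, jj ρ B ≤ jj ρ A) →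
      ∀ x ∈ K, ρ x = 1 := by
  induction n using Nat.strong_induction_on with
  | _ n ih =>
  intro V _ _ _ ρ hn hP
  by_contra nontriv
  have hmin : ∀ W : Submodule (ZMod p) V, (∀ x ∈ K, ∀ w ∈ W, ρ x w ∈ W) →
      (∀ x ∈ A, ∀ w ∈ W, ρ x w ∈ W) → W ≠ ⊤ → ∀ x ∈ K, ∀ w ∈ W, ρ x w = w := by
    intro W h1 h2 hW x hx w hw
    have hinv : ∀ g, W ≤ W.comap (ρ g) := by
      intro g
      have hg : g ∈ closure ((K : Set G) ∪ A) := by rw [← sup_eq_closure, hKA]; exact mem_top g
      induction hg using closure_induction'' with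
      | mem x hx => exact hx.elim (h1 x) (h2 x)
      | inv_mem x hx => exact hx.elim (fun h => h1 _ (K.inv_mem h)) fun h => h2 _ (A.inv_mem h)
      | one => intro w hw; simpa using hw
      | mul x y _ _ hx hy => intro w hw; rw [map_mul]; exact hx (hy hw)
    have hlt : Nat.card W < n := by
      rw [← hn, ← Nat.card_congr (Submodule.topEquiv (R := ZMod p) (M := V)).toEquiv]
      exact lt_of_not_ge fun h => hW (eq_of_le_of_card_ge le_top h)
    have := ih _ hlt W (Representation.subrepresentation ρ W hinv) rfl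
      (jj_sub hP W _ fun _ _ => rfl) x hx
    exact congrArg (fun T : Module.End (ZMod p) W => (T ⟨w, hw⟩ : V)) this
  have hS : Schur ρ K A := by
    intro T h1 h2
    by_contra hcon
    push Not at hcon
    have r : ∀ g, ρ g * T = T * ρ g → ∀ w ∈ LinearMap.range T, ρ g w ∈ LinearMap.range T := by
      rintro g hg _ ⟨w, rfl⟩
      exact ⟨ρ g w, by rw [← Module.End.mul_apply, ← hg]; rfl⟩
    have s : ∀ g, ρ g * T = T * ρ g → ∀ w ∈ LinearMap.ker T, ρ g w ∈ LinearMap.ker T := by
      intro g hg w hw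
      rw [LinearMap.mem_ker] at hw ⊢
      rw [← Module.End.mul_apply, ← hg, Module.End.mul_apply, hw, map_zero]
    have h3 := hmin _ (fun x hx => r x (h1 x hx)) (fun x hx => r x (h2 x hx))
      fun h => hcon.2 (LinearMap.range_eq_top.mp h)
    have h4 := hmin _ (fun x hx => s x (h1 x hx)) (fun x hx => s x (h2 x hx))
      fun h => hcon.1 (LinearMap.ker_eq_top.mp h)
    refine nontriv (qs.pf.eq_one_of_Z fun x hx y hy => LinearMap.ext fun v => ?_)
    have h5 : (ρ y - 1) v ∈ LinearMap.ker T := by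
      rw [LinearMap.mem_ker, LinearMap.sub_apply, map_sub, ← Module.End.mul_apply, ← h1 y hy,
        Module.End.mul_apply, h3 y hy _ ⟨v, rfl⟩, Module.End.one_apply, sub_self]
    rw [Module.End.mul_apply, LinearMap.sub_apply, h4 x hx _ h5, Module.End.one_apply, sub_self,
      LinearMap.zero_apply]
  have : Nontrivial (Module.End (ZMod p) V) := by
    by_contra h
    rw [not_nontrivial_iff_subsingleton] at h
    exact nontriv fun _ _ => Subsingleton.elim _ _
  have : CharP (Module.End (ZMod p) V) p :=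
    charP_of_injective_algebraMap (algebraMap (ZMod p) _).injective p
  have hnil : ∀ a ∈ A, IsNilpotent (ρ a - 1) := fun a ha => ⟨p, by
    rw [sub_pow_char_of_commute _ (Commute.one_right _), ← map_pow, hA a ha, map_one, one_pow,
      sub_self]⟩
  have S : Sit ρ K A := ⟨qs, comm, dich, nontriv, fun b hb hc => by
    rcases hS (ρ b - 1) (fun x hx => comm_sub_one (hc x hx).symm)
      (fun x hx => comm_sub_one (comm x hx b hb)) with h | h
    · exact sub_eq_zero.mp h
    · have := eq_top_of_nilp (W := ⊥) (hnil b hb) (fun w hw => by simp_all)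
        (by rw [bot_sup_eq, LinearMap.range_eq_top.mpr h])
      ext v
      have hv : v ∈ (⊥ : Submodule (ZMod p) V) := this ▸ Submodule.mem_top
      rw [Submodule.mem_bot] at hv
      rw [hv, map_zero, map_zero]⟩
  obtain ⟨B, hBA, hj, hZ, b, hb, hb1⟩ :=
    replacement comm hnil hP ⟨a, ha, fun h => han (S.ker_norm ha h)⟩
  have hpR : (p : Module.End (ZMod p) V) = 0 := CharP.cast_eq_zero _ p
  rcases hp.out.eq_two_or_odd' with h2 | ⟨j, hj⟩
  · subst h2
    exact S.two hS (by simpa using hpR) (fun a ha => by rw [← pow_two, hA a ha]) hP hBA hj hZ hb hb1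
      ha han
  · have h2 : ∀ r : Module.End (ZMod p) V, 2 * r = 0 → r = 0 := by
      intro r hr
      have h3 : (j : Module.End (ZMod p) V) * 2 + 1 = 0 := by
        have h4 := congrArg (Nat.cast : ℕ → Module.End (ZMod p) V) (hj.trans (by ring : _ = j * 2 + 1))
        rw [hpR] at h4
        push_cast at h4
        exact h4.symm
      calc r = ((j : Module.End (ZMod p) V) * 2 + 1) * r := by
            rw [add_mul, mul_assoc, hr, mul_zero, zero_add, one_mul]
        _ = 0 := by rw [h3, zero_mul]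
    by_cases hbn : b ∈ normalizer (K : Set G)
    · exact S.Ia (hBA hb) hbn hb1 ((hZ b hb a ha).symm (comm _ (hBA hb) a ha))
        (S.odd_norm h2 (hBA hb) hbn hb1 (hZ b hb b (hBA hb)) ha han)
    · exact S.odd_move hp.out hpR h2 (hBA hb) hbn (hZ b hb b (hBA hb))

open Cfsg.Lib.Trans in
theorem qs_of_isComponent {G : Type*} [Group G] [Finite G] {K : Subgroup G} (hK : IsComponent K) :
    QS K := by
  refine ⟨fun M hM => ?_, fun M hM => ?_⟩
  · rw [← IsComponent.perfect hK, commutator_le]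
    exact fun x hx y hy => hM x hx y hy
  · refine (IsComponent.le_or_commutator_eq_bot_of_le_normalizer hK (X := M) fun x hx => ?_).imp
      id fun h x _ hxM y hy => ?_
    · rw [mem_normalizer_iff]
      refine fun m => ⟨hM x hx m, fun h => ?_⟩
      have := hM _ (K.inv_mem hx) _ h
      simpa [mul_assoc] using this
    · exact ((commutator_eq_bot_iff_le_centralizer.mp h) hy x hxM)

open Cfsg.Lib.Trans in
theorem dich_of_isComponent {G : Type*} [Group G] [Finite G] {K : Subgroup G} (hK : IsComponent K)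
    (a : G) : a ∈ normalizer (K : Set G) ∨ ∀ x ∈ K, ∀ y ∈ K, Commute (a * x * a⁻¹) y := by
  by_cases h : K.map (MulAut.conj a).toMonoidHom = K
  · left
    rw [mem_normalizer_iff]
    refine fun x => ⟨fun hx => h ▸ ⟨x, hx, rfl⟩, fun hx => ?_⟩
    rw [← h] at hx
    obtain ⟨y, hy, e⟩ := hx
    have : y = x := (MulAut.conj a).injective e
    exact this ▸ hy
  · right
    intro x hx y hy
    have := IsComponent.commutator_eq_bot_of_ne (IsComponent.map_conj hK a) hK h
    exact ((commutator_eq_bot_iff_le_centralizer.mp this) ⟨x, hx, rfl⟩ y hy).symm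

end Cfsg.Lib.PGV
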