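import Cfsg.Agent.Local.PGVRing

/-!
The `P(G,V)`-theorem: counting lemmas and the Timmesfeld replacement theorem.
-/

set_option autoImplicit false

open Subgroup

namespace Cfsg.Lib.PGV

theorem card_le_of_fib {α β γ : Type*} [Finite β] [Finite γ] (f : α → β)
    (g : ∀ x y, f x = f y → γ) (hg : ∀ x y z h h', g x y h = g x z h' → y = z) :
    Nat.card α ≤ Nat.card β * Nat.card γ := by
  classical
  rw [← Nat.card_prod]
  have hs : ∀ x, ∃ y, f y = f x := fun x => ⟨x, rfl⟩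
  let s : ∀ b : β, (∃ y, f y = b) → α := fun b h => h.choose
  refine Nat.card_le_card_of_injective
    (fun x => (f x, g (s (f x) (hs x)) x (hs x).choose_spec)) fun x y hxy => ?_
  obtain ⟨h1, h2⟩ := Prod.mk.inj hxy
  have key : ∀ (u v : α) (hu : f u = f x) (hv : f v = f y), u = v → g u x hu = g v y hv → x = y := by
    rintro u _ hu hv rfl h
    exact hg _ _ _ _ _ h
  refine key _ _ _ _ ?_ h2
  simp only [s, h1]

theorem card_mul_le_sup_inf {G : Type*} [Group G] [Finite G] (C D : Subgroup G) :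
    Nat.card C * Nat.card D ≤ Nat.card (C ⊔ D : Subgroup G) * Nat.card (C ⊓ D : Subgroup G) := by
  rw [← Nat.card_prod]
  refine card_le_of_fib (fun x : C × D => (⟨x.1 * x.2, mul_mem_sup x.1.2 x.2.2⟩ : (C ⊔ D : Subgroup G)))
    (fun x y h => (⟨(x.1 : G)⁻¹ * y.1, C.mul_mem (C.inv_mem x.1.2) y.1.2, by
      have h1 : (x.1 : G) * x.2 = y.1 * y.2 := congrArg Subtype.val h
      have : (x.1 : G)⁻¹ * y.1 = x.2 * (y.2 : G)⁻¹ := by
        calc (x.1 : G)⁻¹ * y.1 = (x.1 : G)⁻¹ * (y.1 * y.2) * (y.2 : G)⁻¹ := by group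
          _ = _ := by rw [← h1]; group
      rw [this]
      exact D.mul_mem x.2.2 (D.inv_mem y.2.2)⟩ : (C ⊓ D : Subgroup G))) ?_
  intro x y z h h' he
  have h1 : (y.1 : G) = z.1 := mul_left_cancel (congrArg Subtype.val he)
  have h2 : (y.1 : G) * y.2 = z.1 * z.2 := congrArg Subtype.val (h.symm.trans h')
  rw [h1] at h2
  exact Prod.ext (Subtype.ext h1) (Subtype.ext (mul_left_cancel h2))

theorem card_le_two_mul {G : Type*} [Group G] [Finite G] (B N : Subgroup G)
    (h : ∀ x ∈ B, ∀ y ∈ B, x ∉ N → y ∉ N → x⁻¹ * y ∈ N) :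
    Nat.card B ≤ 2 * Nat.card (B ⊓ N : Subgroup G) := by
  classical
  have := card_le_of_fib (γ := (B ⊓ N : Subgroup G)) (fun x : B => decide ((x : G) ∈ N))
    (fun x y hxy => ⟨(x : G)⁻¹ * y, B.mul_mem (B.inv_mem x.2) y.2, by
      rw [decide_eq_decide] at hxy
      by_cases hx : (x : G) ∈ N
      · exact N.mul_mem (N.inv_mem hx) (hxy.mp hx)
      · exact h _ x.2 _ y.2 hx fun hy => hx (hxy.mpr hy)⟩)
    (fun x y z _ _ he => Subtype.ext (mul_left_cancel (congrArg Subtype.val he)))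
  simpa using this

section Mod
variable {k : Type*} [Ring k] {V : Type*} [AddCommGroup V] [Module k V] [Finite V]

theorem card_mul_le_sup_inf' (C D : Submodule k V) :
    Nat.card C * Nat.card D ≤ Nat.card (C ⊔ D : Submodule k V) * Nat.card (C ⊓ D : Submodule k V) := by
  rw [← Nat.card_prod]
  refine card_le_of_fib
    (fun x : C × D => (⟨x.1 + x.2, Submodule.add_mem_sup x.1.2 x.2.2⟩ : (C ⊔ D : Submodule k V)))
    (fun x y h => (⟨(y.1 : V) - x.1, C.sub_mem y.1.2 x.1.2, by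
      have h1 : (x.1 : V) + x.2 = y.1 + y.2 := congrArg Subtype.val h
      have : (y.1 : V) - x.1 = x.2 - y.2 := by rw [sub_eq_sub_iff_add_eq_add, ← h1, add_comm]
      rw [this]
      exact D.sub_mem x.2.2 y.2.2⟩ : (C ⊓ D : Submodule k V))) ?_
  intro x y z h h' he
  have h1 : (y.1 : V) = z.1 := sub_left_injective (congrArg Subtype.val he)
  have h2 : (y.1 : V) + y.2 = z.1 + z.2 := congrArg Subtype.val (h.symm.trans h')
  rw [h1] at h2
  exact Prod.ext (Subtype.ext h1) (Subtype.ext (add_left_cancel h2))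

omit [Finite V] in
theorem card_ker_mul_range (T : Module.End k V) :
    Nat.card (LinearMap.ker T) * Nat.card (LinearMap.range T) = Nat.card V := by
  rw [Submodule.card_eq_card_quotient_mul_card (LinearMap.ker T),
    Nat.card_congr T.quotKerEquivRange.toEquiv]

theorem card_le_of_le {C D : Submodule k V} (h : C ≤ D) : Nat.card C ≤ Nat.card D :=
  Nat.card_le_card_of_injective _ (Submodule.inclusion_injective h)

theorem eq_of_le_of_card_ge {C D : Submodule k V} (h : C ≤ D) (h' : Nat.card D ≤ Nat.card C) :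
    C = D := by
  have := AddSubgroup.eq_of_le_of_card_ge (H := C.toAddSubgroup) (K := D.toAddSubgroup) h h'
  exact Submodule.toAddSubgroup_injective this

theorem count {G : Type*} [Group G] [Finite G] (A C : Subgroup G) (W U : Submodule k V) (φ : G → V)
    (hm : ∀ a ∈ A, φ a ∈ U) (hW : W ≤ U)
    (hf : ∀ a ∈ A, ∀ b ∈ A, φ a - φ b ∈ W → a⁻¹ * b ∈ C) :
    Nat.card A * Nat.card W ≤ Nat.card U * Nat.card C := by
  rw [← Nat.card_prod]
  refine card_le_of_fib
    (fun x : A × W => (⟨φ x.1 + x.2, U.add_mem (hm _ x.1.2) (hW x.2.2)⟩ : U))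
    (fun x y h => (⟨(x.1 : G)⁻¹ * y.1, hf _ x.1.2 _ y.1.2 (by
      have h1 : φ x.1 + x.2 = φ y.1 + y.2 := congrArg Subtype.val h
      have : φ x.1 - φ y.1 = y.2 - x.2 := by rw [sub_eq_sub_iff_add_eq_add, h1, add_comm]
      rw [this]
      exact W.sub_mem y.2.2 x.2.2)⟩ : C)) ?_
  intro x y z h h' he
  have h1 : y.1 = z.1 := Subtype.ext (mul_left_cancel (congrArg Subtype.val he))
  have h2 : φ y.1 + y.2 = φ z.1 + z.2 := congrArg Subtype.val (h.symm.trans h')
  rw [h1] at h2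
  exact Prod.ext h1 (Subtype.ext (add_left_cancel h2))

omit [Finite V] in
theorem eq_top_of_nilp {n : Module.End k V} (hn : IsNilpotent n) {W : Submodule k V}
    (hW : ∀ w ∈ W, n w ∈ W) (h : W ⊔ LinearMap.range n = ⊤) : W = ⊤ := by
  have key : ∀ j : ℕ, ∀ v, ∃ w ∈ W, ∃ u, v = w + (n ^ j) u := by
    intro j
    induction j with
    | zero => exact fun v => ⟨0, W.zero_mem, v, by simp⟩
    | succ j ih =>
      intro v
      obtain ⟨w, hw, _, ⟨u, rfl⟩, rfl⟩ := Submodule.mem_sup.mp (h ▸ Submodule.mem_top (x := v))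
      obtain ⟨w', hw', u', rfl⟩ := ih u
      refine ⟨w + n w', W.add_mem hw (hW _ hw'), u', ?_⟩
      rw [map_add, pow_succ', Module.End.mul_apply, add_assoc]
  obtain ⟨j, hj⟩ := hn
  rw [eq_top_iff]
  intro v _
  obtain ⟨w, hw, u, rfl⟩ := key j v
  simpa [hj] using hw

variable {G : Type*} [Group G] (ρ : G →* Module.End k V)

/-- Fixed points of `B`. -/
def fix (B : Subgroup G) : Submodule k V where
  carrier := {v | ∀ b ∈ B, ρ b v = v}
  add_mem' {v w} hv hw b hb := by rw [map_add, hv b hb, hw b hb]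
  zero_mem' b _ := map_zero _
  smul_mem' c v hv b hb := by rw [map_smul, hv b hb]

/-- The offender invariant `|B| |C_V(B)|`. -/
noncomputable def jj (B : Subgroup G) : ℕ := Nat.card B * Nat.card (fix ρ B)

/-- The pointwise stabiliser of a set of vectors. -/
def stabS (S : Set V) : Subgroup G where
  carrier := {g | ∀ v ∈ S, ρ g v = v}
  mul_mem' {a b} ha hb v hv := by rw [map_mul, Module.End.mul_apply, hb v hv, ha v hv]
  one_mem' v _ := by rw [map_one, Module.End.one_apply]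
  inv_mem' {a} ha v hv := by
    conv_lhs => rw [← ha v hv]
    rw [← Module.End.mul_apply, inv_mul_self, Module.End.one_apply]

variable {ρ}

omit [Finite V] in
theorem fix_sup (C D : Subgroup G) : fix ρ (C ⊔ D) = fix ρ C ⊓ fix ρ D := by
  refine le_antisymm (fun v hv => ⟨fun b hb => hv b (mem_sup_left hb), fun b hb =>
    hv b (mem_sup_right hb)⟩) fun v hv b hb => ?_
  have : C ⊔ D ≤ stabS ρ {v} :=
    sup_le (fun c hc w hw => by rw [hw]; exact hv.1 c hc) (fun c hc w hw => by rw [hw]; exact hv.2 c hc)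
  exact this hb v rfl

omit [Finite V] in
theorem fix_anti {C D : Subgroup G} (h : C ≤ D) : fix ρ D ≤ fix ρ C := fun _ hv b hb => hv b (h hb)

variable [Finite G]

theorem jj_pos (B : Subgroup G) : 0 < jj ρ B := Nat.mul_pos Nat.card_pos Nat.card_pos

/-- The Timmesfeld replacement theorem. -/
theorem replacement {A : Subgroup G} (hc : ∀ a ∈ A, ∀ b ∈ A, a * b = b * a)
    (hn : ∀ a ∈ A, IsNilpotent (ρ a - 1)) (hP : ∀ B ≤ A, jj ρ B ≤ jj ρ A)
    (hA : ∃ a ∈ A, ρ a ≠ 1) :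
    ∃ B ≤ A, jj ρ B = jj ρ A ∧ (∀ b ∈ B, ∀ a ∈ A, Z ρ b a) ∧ ∃ b ∈ B, ρ b ≠ 1 := by
  let L : Submodule k V := (⨆ a ∈ A, LinearMap.range (ρ a - 1)) ⊔ fix ρ A
  let F : Set (Subgroup G) := {B | B ≤ A ∧ jj ρ B = jj ρ A ∧ fix ρ B ≤ L}
  have hinf : ∀ C ∈ F, ∀ D ∈ F, C ⊓ D ∈ F := by
    rintro C ⟨hC, hC1, hC2⟩ D ⟨hD, hD1, hD2⟩
    have h1 := card_mul_le_sup_inf C D
    have h2 := card_mul_le_sup_inf' (fix ρ C) (fix ρ D)
    have h3 := hP _ (sup_le hC hD)
    have h4 := hP (C ⊓ D) (inf_le_left.trans hC)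
    have h5 : fix ρ C ⊔ fix ρ D ≤ fix ρ (C ⊓ D) := sup_le (fix_anti inf_le_left) (fix_anti inf_le_right)
    have h6 := card_le_of_le h5
    have h7 : jj ρ A ≤ Nat.card (C ⊓ D : Subgroup G) * Nat.card (fix ρ C ⊔ fix ρ D : Submodule k V) := by
      refine Nat.le_of_mul_le_mul_left ?_ (jj_pos (ρ := ρ) A)
      calc jj ρ A * jj ρ A = jj ρ C * jj ρ D := by rw [hC1, hD1]
        _ = (Nat.card C * Nat.card D) * (Nat.card (fix ρ C) * Nat.card (fix ρ D)) := by
          unfold jj; ring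
        _ ≤ _ := Nat.mul_le_mul h1 h2
        _ = jj ρ (C ⊔ D) * (Nat.card (C ⊓ D : Subgroup G) *
            Nat.card (fix ρ C ⊔ fix ρ D : Submodule k V)) := by
          unfold jj; rw [fix_sup]; ring
        _ ≤ _ := Nat.mul_le_mul_right _ h3
    refine ⟨inf_le_left.trans hC, le_antisymm h4 (h7.trans (Nat.mul_le_mul_left _ h6)), ?_⟩
    rw [← eq_of_le_of_card_ge h5 (Nat.le_of_mul_le_mul_left (h4.trans h7) Nat.card_pos)]
    exact sup_le hC2 hD2
  have hv : ∀ v : V, A ⊓ stabS ρ {w | ∃ a ∈ A, w = (ρ a - 1) v} ∈ F := by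
    intro v
    set C := A ⊓ stabS ρ {w | ∃ a ∈ A, w = (ρ a - 1) v} with hC
    have h1 := count A C (fix ρ A) (fix ρ C ⊓ L) (fun a => (ρ a - 1) v)
      (fun a ha => ⟨fun b hb => hb.2 _ ⟨a, ha, rfl⟩, Submodule.mem_sup_left
        (Submodule.mem_iSup_of_mem a (Submodule.mem_iSup_of_mem ha ⟨v, rfl⟩))⟩)
      (le_inf (fix_anti inf_le_left) le_sup_right) (fun a ha b hb h => by
        have hab := A.mul_mem (A.inv_mem ha) hb
        refine ⟨hab, ?_⟩
        rintro _ ⟨c, hc', rfl⟩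
        have e1 : (ρ a - 1) v - (ρ b - 1) v = -((ρ a * (ρ (a⁻¹ * b) - 1)) v) := by
          rw [mul_sub, ← map_mul, mul_inv_cancel_left, mul_one]
          simp
        have e2 : (ρ (a⁻¹ * b) - 1) v ∈ fix ρ A := by
          have := h a⁻¹ (A.inv_mem ha)
          rw [← this, e1, map_neg, ← Module.End.mul_apply, ← mul_assoc, inv_mul_self, one_mul] at h
          exact neg_mem_iff.mp h
        have e3 : ((ρ c - 1) * (ρ (a⁻¹ * b) - 1)) v = 0 := by
          rw [Module.End.mul_apply, LinearMap.sub_apply, e2 c hc', Module.End.one_apply, sub_self]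
        have e4 : (ρ c - 1) * (ρ (a⁻¹ * b) - 1) = (ρ (a⁻¹ * b) - 1) * (ρ c - 1) := by
          rw [sub_mul, comm_sub_one (hc c hc' _ hab), one_mul, mul_sub, mul_one]
        rw [e4, Module.End.mul_apply, LinearMap.sub_apply, Module.End.one_apply, sub_eq_zero] at e3
        exact e3)
    have h4 := hP C inf_le_left
    have h6 := card_le_of_le (inf_le_left : fix ρ C ⊓ L ≤ _)
    rw [mul_comm (Nat.card (fix ρ C ⊓ L : Submodule k V))] at h1
    refine ⟨inf_le_left, le_antisymm h4 (h1.trans (Nat.mul_le_mul_left _ h6)), ?_⟩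
    rw [← eq_of_le_of_card_ge inf_le_left (Nat.le_of_mul_le_mul_left (h4.trans h1) Nat.card_pos)]
    exact inf_le_right
  obtain ⟨B, hB, hmin⟩ := (Set.toFinite F).exists_minimal ⟨A, le_rfl, rfl, le_sup_right⟩
  refine ⟨B, hB.1, hB.2.1, fun b hb a ha => ?_, ?_⟩
  · ext v
    have := (hmin (hinf _ hB _ (hv v)) inf_le_left hb).2.2 _ ⟨a, ha, rfl⟩
    rw [Module.End.mul_apply, LinearMap.sub_apply, this, Module.End.one_apply, sub_self,
      LinearMap.zero_apply]
  by_contra hcon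
  push Not at hcon
  have hL : L = ⊤ := eq_top_iff.mpr fun v _ => hB.2.2 fun b hb => by rw [hcon b hb]; rfl
  let M : Set (Submodule k V) := {W | fix ρ A ≤ W ∧ W ≠ ⊤ ∧ ∀ a ∈ A, ∀ w ∈ W, ρ a w ∈ W}
  have : Finite (Submodule k V) := Finite.of_injective _ SetLike.coe_injective
  obtain ⟨W, hW, hmax⟩ := (Set.toFinite M).exists_maximal ⟨fix ρ A, le_rfl, fun h => by
    obtain ⟨a, ha, ha1⟩ := hA
    exact ha1 (LinearMap.ext fun v => (h ▸ Submodule.mem_top : v ∈ fix ρ A) a ha),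
    fun a ha w hw => by rw [hw a ha]; exact hw⟩
  refine hW.2.1 (eq_top_iff.mpr (hL ▸ sup_le (iSup₂_le fun a ha => ?_) hW.1))
  refine le_sup_right.trans (hmax ⟨hW.1.trans le_sup_left, fun h => hW.2.1
    (eq_top_of_nilp (hn a ha) (fun w hw => W.sub_mem (hW.2.2 a ha w hw) hw) h), ?_⟩ le_sup_left)
  intro c hc' w hw
  obtain ⟨w', hw', _, ⟨u, rfl⟩, rfl⟩ := Submodule.mem_sup.mp hw
  rw [map_add, ← Module.End.mul_apply, comm_sub_one (hc c hc' a ha)]
  exact Submodule.add_mem_sup (hW.2.2 c hc' w' hw') ⟨_, rfl⟩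

end Mod

end Cfsg.Lib.PGV
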