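import Cfsg.Agent.Local.PGVBasic

/-!
The `P(G,V)`-theorem: the part of the argument that takes place in an arbitrary ring.
-/

set_option autoImplicit false

open Subgroup

namespace Cfsg.Lib.PGV

variable {G : Type*} [Group G] {R : Type*} [Ring R]

/-- The reduced situation. -/
structure Sit (ρ : G →* R) (K A : Subgroup G) : Prop where
  qs : QS K
  comm : ∀ a ∈ A, ∀ b ∈ A, a * b = b * a
  dich : ∀ a ∈ A, a ∈ normalizer (K : Set G) ∨
    ∀ x ∈ K, ∀ y ∈ K, Commute (a * x * a⁻¹) y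
  nontriv : ¬ ∀ x ∈ K, ρ x = 1
  faith : ∀ b ∈ A, (∀ x ∈ K, b * x = x * b) → ρ b = 1

variable {ρ : G →* R} {K A : Subgroup G}

theorem conj_mem_of_norm {b x : G} (hb : b ∈ normalizer (K : Set G)) (hx : x ∈ K) :
    b * x * b⁻¹ ∈ K := (mem_normalizer_iff.mp hb x).mp hx

theorem comm_mem_of_norm {b x : G} (hb : b ∈ normalizer (K : Set G)) (hx : x ∈ K) :
    x * b * x⁻¹ * b⁻¹ ∈ K := by
  have := K.mul_mem hx (conj_mem_of_norm hb (K.inv_mem hx))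
  simpa [mul_assoc] using this

theorem Pf.range (h : Pf K) (φ : K →* G) : Pf φ.range := by
  rintro M hM _ ⟨x, rfl⟩
  obtain ⟨x', hx', he⟩ := h ((M.comap φ).map K.subtype) (fun a ha b hb =>
    ⟨⟨a, ha⟩ * ⟨b, hb⟩ * ⟨a, ha⟩⁻¹ * ⟨b, hb⟩⁻¹, by
      rw [SetLike.mem_coe, mem_comap, map_mul, map_mul, map_mul, map_inv, map_inv]
      exact hM _ ⟨_, rfl⟩ _ ⟨_, rfl⟩, rfl⟩) x.2
  have : x' = x := Subtype.ext he
  subst this
  exact hx'

namespace Sit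

theorem not_le_cen (S : Sit ρ K A) : ¬ K ≤ cen ρ K :=
  fun h => S.nontriv (S.qs.pf.eq_one_of_le_cen h)

theorem cm (S : Sit ρ K A) {a : G} (ha : a ∈ A) (hn : a ∉ normalizer (K : Set G)) {x y : G}
    (hx : x ∈ K) (hy : y ∈ K) : Commute (a * x * a⁻¹) y :=
  (S.dich a ha).resolve_left hn x hx y hy

theorem cm₂ (S : Sit ρ K A) {g h : G} (hg : g ∈ A) (hh : h ∈ A)
    (hn : h⁻¹ * g ∉ normalizer (K : Set G)) {x y : G} (hx : x ∈ K) (hy : y ∈ K) :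
    Commute (g * x * g⁻¹) (h * y * h⁻¹) := by
  have := (S.cm (A.mul_mem (A.inv_mem hh) hg) hn hx hy).eq
  calc g * x * g⁻¹ * (h * y * h⁻¹) = h * (h⁻¹ * g * x * (h⁻¹ * g)⁻¹ * y) * h⁻¹ := by group
    _ = _ := by rw [this]; group

theorem mem_cen_of_eq (S : Sit ρ K A) {a : G} (ha : a ∈ A) (hn : a ∉ normalizer (K : Set G))
    {x z : G} (hz : z ∈ K) (h : ρ x = ρ (a * z * a⁻¹)) : x ∈ cen ρ K := by
  intro y hy
  rw [h, ← map_mul, ← map_mul, (S.cm ha hn hz hy).eq]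

theorem ker_norm (S : Sit ρ K A) {g : G} (hg : g ∈ A) (h : ρ g = 1) :
    g ∈ normalizer (K : Set G) := by
  by_contra hn
  refine S.not_le_cen fun x hx => S.mem_cen_of_eq hg hn hx ?_
  have : ρ g⁻¹ = 1 := by rw [← mul_inv_self (ρ := ρ) g, h, one_mul]
  rw [map_mul, map_mul, h, this, one_mul, mul_one]

theorem not_cent (S : Sit ρ K A) {b : G} (hb : b ∈ A) (h : ρ b ≠ 1) :
    ¬ ∀ x ∈ K, b * x = x * b := fun hc => h (S.faith b hb hc)

theorem Ia (S : Sit ρ K A) {a b : G} (hb : b ∈ A) (hbn : b ∈ normalizer (K : Set G))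
    (hb1 : ρ b ≠ 1) (hab : Z ρ a b) (hZ : ∀ x ∈ K, ∀ y ∈ K, Z ρ x (a * y * a⁻¹)) : False := by
  have key : ∀ x ∈ K, ∀ y ∈ K, (ρ x - 1) * ((ρ b - 1) * (ρ y - 1)) = 0 := by
    intro x hx y hy
    have h1 : ρ a * (ρ b - 1) = ρ b - 1 := Z_iff_L.mp hab
    have h2 : ρ a * (ρ b - 1) * (ρ y - 1) =
        (ρ (a * (b * y * b⁻¹) * a⁻¹) - 1) * ρ (a * b) - (ρ (a * y * a⁻¹) - 1) * ρ a := by
      rw [sub_mul, sub_mul (ρ _) 1, ← map_mul, ← map_mul,
        show a * (b * y * b⁻¹) * a⁻¹ * (a * b) = a * b * y by group,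
        show a * y * a⁻¹ * a = a * y by group]
      simp only [map_mul]
      noncomm_ring
    have h3 := hZ x hx _ (conj_mem_of_norm hbn hy)
    have h4 := hZ x hx y hy
    unfold Z at h3 h4
    rw [← h1, h2, mul_sub, ← mul_assoc (ρ x - 1), ← mul_assoc (ρ x - 1), h3, h4, zero_mul, zero_mul,
      sub_zero]
  let M : Subgroup G :=
    { carrier := {g | g ∈ normalizer (K : Set G) ∧
        ∀ x ∈ K, ∀ y ∈ K, (ρ x - 1) * ((ρ g - 1) * (ρ y - 1)) = 0}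
      mul_mem' := by
        rintro g h ⟨hg, hg'⟩ ⟨hh, hh'⟩
        refine ⟨mul_mem hg hh, fun x hx y hy => ?_⟩
        have h1 := hh' _ (conj_mem_of_norm (inv_mem hg) hx) y hy
        have h2 := hg' x hx y hy
        have h3 : (ρ x - 1) * ρ g = ρ g * (ρ (g⁻¹ * x * g⁻¹⁻¹) - 1) := by
          rw [conj_sub_one, ← mul_assoc, ← mul_assoc, mul_inv_self, one_mul, inv_inv]
        have h4 : (ρ x - 1) * ((ρ (g * h) - 1) * (ρ y - 1)) =
            (ρ x - 1) * ρ g * ((ρ h - 1) * (ρ y - 1)) + (ρ x - 1) * ((ρ g - 1) * (ρ y - 1)) := by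
          rw [map_mul]; noncomm_ring
        rw [h4, h2, h3, mul_assoc, h1, mul_zero, add_zero]
      one_mem' := ⟨one_mem _, fun x _ y _ => by rw [map_one, sub_self, zero_mul, mul_zero]⟩
      inv_mem' := by
        rintro g ⟨hg, hg'⟩
        refine ⟨inv_mem hg, fun x hx y hy => ?_⟩
        have h1 := hg' _ (conj_mem_of_norm hg hx) y hy
        have h3 : (ρ x - 1) * ρ g⁻¹ = ρ g⁻¹ * (ρ (g * x * g⁻¹) - 1) := by
          rw [conj_sub_one, ← mul_assoc, ← mul_assoc, inv_mul_self, one_mul]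
        have h4 : ρ g⁻¹ - 1 = -(ρ g⁻¹ * (ρ g - 1)) := by
          rw [mul_sub, inv_mul_self, mul_one, neg_sub]
        rw [h4, neg_mul, mul_neg, mul_assoc, ← mul_assoc, h3, mul_assoc, h1, mul_zero, neg_zero] }
  have hM : Nz K M := by
    rintro z hz m ⟨hm, hm'⟩
    refine ⟨mul_mem (mul_mem (le_normalizer hz) hm) (inv_mem (le_normalizer hz)),
      fun x hx y hy => ?_⟩
    have h1 := hm' _ (conj_mem_of_norm (le_normalizer (inv_mem hz)) hx) _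
      (conj_mem_of_norm (le_normalizer (inv_mem hz)) hy)
    have e1 : ρ x - 1 = ρ z * (ρ (z⁻¹ * x * z⁻¹⁻¹) - 1) * ρ z⁻¹ := by
      rw [← conj_sub_one]; congr 2; group
    have e2 : ρ y - 1 = ρ z * (ρ (z⁻¹ * y * z⁻¹⁻¹) - 1) * ρ z⁻¹ := by
      rw [← conj_sub_one]; congr 2; group
    rw [e1, e2, conj_sub_one z m]
    calc _ = ρ z * ((ρ (z⁻¹ * x * z⁻¹⁻¹) - 1) * ((ρ z⁻¹ * ρ z) * (ρ m - 1) * (ρ z⁻¹ * ρ z) *
          (ρ (z⁻¹ * y * z⁻¹⁻¹) - 1))) * ρ z⁻¹ := by simp only [mul_assoc]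
      _ = 0 := by rw [inv_mul_self, one_mul, mul_one, h1, mul_zero, zero_mul]
  have hbM : b ∈ M := ⟨hbn, key⟩
  have hKM : K ≤ M := S.qs.le_of_comm_mem (fun x hx => conj_mem_of_norm hbn hx)
    (S.not_cent hb hb1) hM fun x hx => mul_mem (hM x hx b hbM) (inv_mem hbM)
  exact S.nontriv (S.qs.pf.eq_one_of_Z fun x hx y hy =>
    Z_iff_L.mpr (S.qs.pf.le_stabL (fun x hx z hz => (hKM hz).2 x hx y hy) hx))

theorem Ib (S : Sit ρ K A) {a b : G} (hba : Z ρ b a)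
    (h1 : ∀ x ∈ K, ∀ y ∈ K, Z ρ x (a * y * a⁻¹)) (h2 : ∀ x ∈ K, ∀ y ∈ K, Z ρ x (b * y * b⁻¹))
    (h3 : ∀ x ∈ K, ∀ y ∈ K, Z ρ x (b * a * y * (b * a)⁻¹)) : False := by
  refine S.nontriv (S.qs.pf.eq_one_of_Z fun x hx y hy => ?_)
  have key : ∀ g, Z ρ x (g * y * g⁻¹) → (ρ x - 1) * (ρ g * (ρ y - 1)) = 0 := by
    intro g hg
    unfold Z at hg
    rw [conj_sub_one] at hg
    calc _ = (ρ x - 1) * (ρ g * (ρ y - 1) * ρ g⁻¹) * ρ g := by
          rw [mul_assoc, mul_assoc (ρ g * _), inv_mul_self, mul_one]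
      _ = 0 := by rw [hg, zero_mul]
  have e : (ρ x - 1) * (ρ y - 1) = (ρ x - 1) * (ρ a * (ρ y - 1)) + (ρ x - 1) * (ρ b * (ρ y - 1)) -
      (ρ x - 1) * (ρ (b * a) * (ρ y - 1)) + (ρ x - 1) * (((ρ b - 1) * (ρ a - 1)) * (ρ y - 1)) := by
    rw [map_mul]; noncomm_ring
  unfold Z at hba ⊢
  rw [e, key a (h1 x hx y hy), key b (h2 x hx y hy), key _ (h3 x hx y hy), hba]
  simp

theorem odd_move [Finite G] (S : Sit ρ K A) {p : ℕ} (hp : p.Prime) (hpR : (p : R) = 0)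
    (h2 : ∀ r : R, 2 * r = 0 → r = 0) {b : G} (hb : b ∈ A) (hbn : b ∉ normalizer (K : Set G))
    (hbb : Z ρ b b) : False := by
  refine S.not_le_cen (S.qs.pf.le_of_pow nz_cen hp hp fun x hx => ⟨1, 0, ?_⟩)
  have hc : Commute (b * x⁻¹ * b⁻¹) x := S.cm hb hbn (K.inv_mem hx) hx
  set c := x * (b * x⁻¹ * b⁻¹) with hcdef
  have hxc : x * c = c * x := (Commute.mul_right (Commute.refl x) hc.symm).eq
  have e1 : x * b * x⁻¹ = c * b := by rw [hcdef]; group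
  have e2 : x * (x * b * x⁻¹) * x⁻¹ = c * c * b := by
    rw [e1, ← mul_assoc, hxc, mul_assoc c c, ← e1]; group
  have h3 := h2 _ (two_mul_Z (c := c) (d := c) rfl hbb (e1 ▸ hbb.conj x) (e1 ▸ hbb.conj x)
    (e2 ▸ (hbb.conj x).conj x))
  have h4 : Z ρ c c := Z_iff_R.mpr (by simpa using (stabR ρ _).inv_mem (Z_iff_R.mp h3))
  have h5 := h4.pow p
  rw [hpR, zero_mul, add_zero, hcdef, hc.symm.mul_pow, conj_pow, map_mul] at h5
  rw [pow_one, pow_zero, mul_one]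
  refine S.mem_cen_of_eq hb hbn (K.pow_mem hx p) ?_
  calc ρ (x ^ p) = ρ (x ^ p) * (ρ (b * x⁻¹ ^ p * b⁻¹) * ρ (b * x ^ p * b⁻¹)) := by
        rw [← map_mul, inv_pow, show b * (x ^ p)⁻¹ * b⁻¹ * (b * x ^ p * b⁻¹) = 1 by group, map_one,
          mul_one]
    _ = _ := by rw [← mul_assoc, h5, one_mul]

theorem odd_norm (S : Sit ρ K A) (h2 : ∀ r : R, 2 * r = 0 → r = 0) {a b : G} (hb : b ∈ A)
    (hbn : b ∈ normalizer (K : Set G)) (hb1 : ρ b ≠ 1) (hbb : Z ρ b b) (ha : a ∈ A)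
    (han : a ∉ normalizer (K : Set G)) : ∀ x ∈ K, ∀ y ∈ K, Z ρ x (a * y * a⁻¹) := by
  have hab : a * b = b * a := S.comm a ha b hb
  have hb' : ∀ x ∈ K, b * x * b⁻¹ ∈ K := fun x hx => conj_mem_of_norm hbn hx
  have step1 : ∀ x ∈ K, ∀ y ∈ K,
      Z ρ (x * b * x⁻¹ * b⁻¹) (a * (y * b * y⁻¹ * b⁻¹) * a⁻¹) := by
    intro x hx y hy
    set c := x * b * x⁻¹ * b⁻¹ with hc
    set d := a * (y * b * y⁻¹ * b⁻¹) * a⁻¹ with hd
    have hcK : c ∈ K := comm_mem_of_norm hbn hx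
    have hdx : d * x⁻¹ = x⁻¹ * d := (S.cm ha han (comm_mem_of_norm hbn hy) (K.inv_mem hx)).eq
    have hcd : c * d = d * c := (S.cm ha han (comm_mem_of_norm hbn hy) hcK).symm.eq
    have e1 : x * b * x⁻¹ = c * b := by rw [hc]; group
    have e2 : (a * y * a⁻¹) * b * (a * y * a⁻¹)⁻¹ = d * b := by
      have : b⁻¹ * a⁻¹ * b = a⁻¹ := by
        rw [← mul_inv_rev, hab]; group
      calc (a * y * a⁻¹) * b * (a * y * a⁻¹)⁻¹ = a * y * a⁻¹ * (b * a) * y⁻¹ * a⁻¹ := by group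
        _ = a * y * b * y⁻¹ * (b⁻¹ * a⁻¹ * b) := by rw [← hab, this]; group
        _ = _ := by rw [hd]; group
    have e3 : x * ((a * y * a⁻¹) * b * (a * y * a⁻¹)⁻¹) * x⁻¹ = c * d * b := by
      rw [e2, hcd, mul_assoc d c b, ← e1]
      calc x * (d * b) * x⁻¹ = x * (d * x⁻¹) * (x * b * x⁻¹) := by group
        _ = _ := by rw [hdx]; group
    have h3 := h2 _ (two_mul_Z hcd hbb (e1 ▸ hbb.conj x) (e2 ▸ hbb.conj _)
      (e3 ▸ (hbb.conj _).conj x))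
    exact Z_iff_R.mpr (by simpa using (stabR ρ _).inv_mem (Z_iff_R.mp h3))
  have step2 : ∀ y ∈ K, ∀ x ∈ K, Z ρ x (a * (y * b * y⁻¹ * b⁻¹) * a⁻¹) := by
    intro y hy x hx
    refine Z_iff_L.mpr (S.qs.le_of_comm_mem hb' (S.not_cent hb hb1) (fun z hz m hm => ?_)
      (fun x hx => Z_iff_L.mp (step1 x hx y hy)) hx)
    exact conj_mem_stabL (comm_sub_one (S.cm ha han (comm_mem_of_norm hbn hy) hz).symm.eq) hm
  intro x hx y hy
  have := S.qs.le_of_comm_mem (M := (stabR ρ (ρ x - 1)).comap (MulAut.conj a).toMonoidHom) hb'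
    (S.not_cent hb hb1) (fun z hz m hm => by
      rw [mem_comap, map_mul, map_mul, map_inv]
      exact conj_mem_stabR (comm_sub_one (S.cm ha han hz hx).eq) hm)
    (fun y hy => Z_iff_R.mp (step2 y hy x hx)) hy
  exact Z_iff_R.mpr this

section Two

/-- The diagonal map `x ↦ x x^a`. -/
def diag (S : Sit ρ K A) {a : G} (ha : a ∈ A) (han : a ∉ normalizer (K : Set G)) : K →* G where
  toFun x := x * (a * x * a⁻¹)
  map_one' := by simp
  map_mul' x y := by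
    have := (S.cm ha han x.2 y.2).eq
    calc ((x * y : K) : G) * (a * (x * y : K) * a⁻¹)
        = x * (y * (a * x * a⁻¹)) * (a * y * a⁻¹) := by push_cast; group
      _ = _ := by rw [← this]; group

theorem diag_comm (S : Sit ρ K A) {a : G} (ha : a ∈ A) (han : a ∉ normalizer (K : Set G))
    (ha2 : a * a = 1) {x : G} (hx : x ∈ K) : x * (a * x * a⁻¹) * a = a * (x * (a * x * a⁻¹)) := by
  have hi : a⁻¹ = a := inv_eq_of_mul_eq_one_right ha2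
  rw [← (S.cm ha han hx hx).eq, hi]
  calc a * x * a * x * a = a * (x * (a * x * a)) := by group
    _ = a * (a * x * a * x) := by
      have := (S.cm ha han hx hx).eq
      rw [hi] at this
      rw [this]

theorem Z_diag_aux (S : Sit ρ K A) {a b : G} (ha : a ∈ A) (han : a ∉ normalizer (K : Set G))
    (ha2 : a * a = 1) (hb : b ∈ A) (hbn : b ∈ normalizer (K : Set G)) (hb1 : ρ b ≠ 1)
    (hba : Z ρ b a) : ∀ x ∈ K, Z ρ (x * (a * x * a⁻¹)) a := by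
  intro x hx
  have hab : a * b = b * a := S.comm a ha b hb
  have hnz : ∀ z : K, ∀ m ∈ stabL ρ (ρ a - 1),
      S.diag ha han z * m * (S.diag ha han z)⁻¹ ∈ stabL ρ (ρ a - 1) := fun z m hm =>
    conj_mem_stabL (comm_sub_one (S.diag_comm ha han ha2 z.2)) hm
  obtain ⟨x', hx', he⟩ := S.qs.le_of_comm_mem
    (M := ((stabL ρ (ρ a - 1)).comap (S.diag ha han)).map K.subtype)
    (fun x hx => conj_mem_of_norm hbn hx) (S.not_cent hb hb1)
    (by
      rintro z hz _ ⟨m, hm, rfl⟩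
      refine ⟨⟨z, hz⟩ * m * ⟨z, hz⟩⁻¹, ?_, rfl⟩
      rw [SetLike.mem_coe, mem_comap, map_mul, map_mul, map_inv]
      exact hnz _ _ hm)
    (fun z hz => ⟨⟨z, hz⟩ * ⟨b * z⁻¹ * b⁻¹, conj_mem_of_norm hbn (K.inv_mem hz)⟩, by
      rw [SetLike.mem_coe, mem_comap, map_mul]
      have h1 := mul_mem (hnz ⟨z, hz⟩ b (Z_iff_L.mp hba)) (inv_mem (Z_iff_L.mp hba))
      have h2 : S.diag ha han ⟨b * z⁻¹ * b⁻¹, conj_mem_of_norm hbn (K.inv_mem hz)⟩ =
          b * S.diag ha han ⟨z, hz⟩⁻¹ * b⁻¹ := by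
        change b * z⁻¹ * b⁻¹ * (a * (b * z⁻¹ * b⁻¹) * a⁻¹) = b * (z⁻¹ * (a * z⁻¹ * a⁻¹)) * b⁻¹
        calc _ = b * z⁻¹ * b⁻¹ * (a * b) * z⁻¹ * (a * b)⁻¹ := by group
          _ = _ := by rw [hab]; group
      rw [h2, map_inv]
      simpa only [mul_assoc] using h1, by simp [mul_assoc]⟩) hx
  have : x' = ⟨x, hx⟩ := Subtype.ext he
  subst this
  exact Z_iff_L.mpr hx'

theorem Z_self (h2 : (2 : R) = 0) {a : G} (ha2 : a * a = 1) : Z ρ a a := by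
  unfold Z
  have : (ρ a - 1) * (ρ a - 1) = (ρ a * ρ a - 1) + 2 * (1 - ρ a) := by
    rw [← one_add_one_eq_two]; noncomm_ring
  rw [this, ← map_mul, ha2, map_one, h2, sub_self, zero_mul, add_zero]

theorem Z_diag (S : Sit ρ K A) (h2 : (2 : R) = 0) {a b : G} (ha : a ∈ A)
    (han : a ∉ normalizer (K : Set G)) (ha2 : a * a = 1) (hb : b ∈ A) (hb1 : ρ b ≠ 1)
    (hab1 : ρ (a * b) ≠ 1) (hba : Z ρ b a) : ∀ x ∈ K, Z ρ (x * (a * x * a⁻¹)) a := by
  by_cases hbn : b ∈ normalizer (K : Set G)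
  · exact S.Z_diag_aux ha han ha2 hb hbn hb1 hba
  by_cases habn : a * b ∈ normalizer (K : Set G)
  · exact S.Z_diag_aux ha han ha2 (mul_mem ha hb) habn hab1
      (Z_iff_L.mpr (mul_mem (Z_iff_L.mp (Z_self h2 ha2)) (Z_iff_L.mp hba)))
  have hi : a⁻¹ = a := inv_eq_of_mul_eq_one_right ha2
  have hab : a * b = b * a := S.comm a ha b hb
  have hnz : Nz (S.diag ha han).range (stabL ρ (ρ a - 1)) := by
    rintro _ ⟨z, rfl⟩ m hm
    exact conj_mem_stabL (comm_sub_one (S.diag_comm ha han ha2 z.2)) hm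
  intro x hx
  refine Z_iff_L.mpr ((S.qs.pf.range (S.diag ha han)).le_of_comm hnz ?_ ⟨⟨x, hx⟩, rfl⟩)
  rintro _ ⟨z, rfl⟩
  refine ⟨b * S.diag ha han z⁻¹ * b⁻¹, ?_, ?_⟩
  · rintro _ ⟨y, rfl⟩
    have e : b * S.diag ha han z⁻¹ * b⁻¹ =
        (b * (z⁻¹ : K) * b⁻¹) * ((b * a) * (z⁻¹ : K) * (b * a)⁻¹) := by
      change b * ((z⁻¹ : K) * (a * (z⁻¹ : K) * a⁻¹)) * b⁻¹ = _
      group
    rw [e]
    refine (Commute.mul_left (Commute.mul_right ?_ ?_) (Commute.mul_right ?_ ?_)).symm.eq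
    · exact S.cm hb hbn (z⁻¹).2 y.2
    · exact S.cm₂ hb ha (by rwa [hi]) (z⁻¹).2 y.2
    · exact S.cm (mul_mem hb ha) (by rwa [← hab]) (z⁻¹).2 y.2
    · exact S.cm₂ (mul_mem hb ha) ha (by rwa [← hab, inv_mul_cancel_left]) (z⁻¹).2 y.2
  · have h1 := mul_mem (hnz _ ⟨z, rfl⟩ b (Z_iff_L.mp hba)) (inv_mem (Z_iff_L.mp hba))
    rw [map_inv]
    simpa only [mul_assoc] using h1

theorem third (S : Sit ρ K A) {a g : G} (ha : a ∈ A) (han : a ∉ normalizer (K : Set G))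
    (ha2 : a * a = 1) (hD : ∀ x ∈ K, Z ρ (x * (a * x * a⁻¹)) a) (hg : g ∈ A)
    (hgn : g ∉ normalizer (K : Set G)) (hagn : a * g ∉ normalizer (K : Set G)) :
    ∀ x ∈ K, ∀ y ∈ K, Z ρ x (g * y * g⁻¹) := by
  have hi : a⁻¹ = a := inv_eq_of_mul_eq_one_right ha2
  have hag : a * g = g * a := S.comm a ha g hg
  have step : ∀ x ∈ K, ∀ y ∈ K, Z ρ (x * (a * x * a⁻¹)) (g * y * g⁻¹) := by
    intro x hx y hy
    have hcm : ∀ z ∈ K, ρ (g * z * g⁻¹) * (ρ (x * (a * x * a⁻¹)) - 1) =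
        (ρ (x * (a * x * a⁻¹)) - 1) * ρ (g * z * g⁻¹) := fun z hz =>
      comm_sub_one (Commute.mul_right (S.cm hg hgn hz hx) (S.cm₂ hg ha (by rwa [hi]) hz hx)).eq
    have := S.qs.pf.le_of_comm
      (M := (stabR ρ (ρ (x * (a * x * a⁻¹)) - 1)).comap (MulAut.conj g).toMonoidHom)
      (fun z hz m hm => by
        rw [mem_comap, map_mul (MulAut.conj g).toMonoidHom, map_mul (MulAut.conj g).toMonoidHom,
          map_inv (MulAut.conj g).toMonoidHom]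
        exact conj_mem_stabR (hcm z hz) hm)
      (fun z hz => ⟨a * z⁻¹ * a⁻¹, fun w hw => (S.cm ha han (K.inv_mem hz) hw).symm.eq, by
        have h1 := mul_mem (conj_mem_stabR (hcm z hz) (Z_iff_R.mp (hD x hx)))
          (inv_mem (Z_iff_R.mp (hD x hx)))
        have e : g * z * g⁻¹ * a * (g * z * g⁻¹)⁻¹ * a⁻¹ = g * (z * (a * z⁻¹ * a⁻¹)) * g⁻¹ := by
          calc _ = g * z * g⁻¹ * (a * g) * z⁻¹ * (a * g)⁻¹ := by group
            _ = _ := by rw [hag]; group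
        rw [e] at h1
        exact h1⟩) hy
    exact Z_iff_R.mpr this
  intro x hx y hy
  exact Z_iff_L.mpr (S.qs.pf.le_of_comm
    (fun z hz m hm => conj_mem_stabL (comm_sub_one (S.cm hg hgn hy hz).symm.eq) hm)
    (fun z hz => ⟨a * z * a⁻¹, fun w hw => (S.cm ha han hz hw).symm.eq,
      Z_iff_L.mp (step z hz y hy)⟩) hx)

/-- The case of at least four components. -/
theorem four (S : Sit ρ K A) (h2 : (2 : R) = 0) (hA : ∀ a ∈ A, a * a = 1) {b : G} (hb : b ∈ A)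
    (hb1 : ρ b ≠ 1) (hZ : ∀ a ∈ A, Z ρ b a) {a₁ a₂ : G} (h1 : a₁ ∈ A) (h2' : a₂ ∈ A)
    (hn1 : a₁ ∉ normalizer (K : Set G)) (hn2 : a₂ ∉ normalizer (K : Set G))
    (hn12 : a₁ * a₂ ∉ normalizer (K : Set G)) : False := by
  have other : ∀ g ∈ A, ∃ a ∈ A, a ∉ normalizer (K : Set G) ∧ a * g ∉ normalizer (K : Set G) := by
    intro g hg
    by_contra hc
    push Not at hc
    apply hn12
    have := mul_mem (hc a₁ h1 hn1) (hc a₂ h2' hn2)
    rwa [← S.comm g hg a₂ h2', mul_assoc, ← mul_assoc g g, hA g hg, one_mul] at this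
  have hD : ∀ a ∈ A, a ∉ normalizer (K : Set G) → ∀ x ∈ K, Z ρ (x * (a * x * a⁻¹)) a := by
    intro a ha han
    by_cases hab : ρ (a * b) = 1
    · obtain ⟨a', ha', hn', hn''⟩ := other a ha
      have e : ρ a = ρ b := by
        calc ρ a = ρ (a * b) * ρ b := by rw [← map_mul, mul_assoc, hA b hb, mul_one]
          _ = ρ b := by rw [hab, one_mul]
      refine S.Z_diag h2 ha han (hA a ha) ha' (fun h => hn' (S.ker_norm ha' h))
        (fun h => hn'' (S.comm a ha a' ha' ▸ S.ker_norm (mul_mem ha ha') h)) ?_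
      have := (hZ a' ha').symm (S.comm b hb a' ha')
      unfold Z at this ⊢
      rwa [e]
    · exact S.Z_diag h2 ha han (hA a ha) hb hb1 hab (hZ a ha)
  have hT : ∀ g ∈ A, g ∉ normalizer (K : Set G) → ∀ x ∈ K, ∀ y ∈ K, Z ρ x (g * y * g⁻¹) := by
    intro g hg hgn
    obtain ⟨a, ha, han, hagn⟩ := other g hg
    exact S.third ha han (hA a ha) (hD a ha han) hg hgn hagn
  by_cases hbn : b ∈ normalizer (K : Set G)
  · exact S.Ia hb hbn hb1 ((hZ a₁ h1).symm (S.comm b hb a₁ h1)) (hT a₁ h1 hn1)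
  · obtain ⟨a, ha, han, habn⟩ := other b hb
    exact S.Ib (hZ a ha) (hT a ha han) (hT b hb hbn)
      (hT _ (mul_mem hb ha) (by rwa [S.comm b hb a ha]))

end Two

end Sit

end Cfsg.Lib.PGV
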