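import Cfsg.Agent.Local.PGVMod

/-!
The `P(G,V)`-theorem: two components in characteristic two.
-/

set_option autoImplicit false

open Subgroup

namespace Cfsg.Lib.PGV

theorem mem_of_sq_mem {G : Type*} [Group G] {H : Subgroup G} {c : G} {m : ℕ} (hm : Odd m)
    (hc : c ^ m = 1) (h : c * c ∈ H) : c ∈ H := by
  obtain ⟨j, rfl⟩ := hm
  have := H.pow_mem h (j + 1)
  rwa [← pow_two, ← pow_mul, show 2 * (j + 1) = 2 * j + 1 + 1 by ring, pow_succ, hc, one_mul] at this

theorem mem_of_inverted {G : Type*} [Group G] {H : Subgroup G} {b c : G} {m : ℕ} (hm : Odd m)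
    (hc : c ^ m = 1) (hbc : b * c * b⁻¹ = c⁻¹) (hb : b ∈ H) (h : c * b * c⁻¹ ∈ H) : c ∈ H := by
  refine mem_of_sq_mem hm hc ?_
  have := H.mul_mem h (H.inv_mem hb)
  rwa [show c * b * c⁻¹ * b⁻¹ = c * (b * c * b⁻¹)⁻¹ by group, hbc, inv_inv] at this

section Rng
variable {G : Type*} [Group G] {R : Type*} [Ring R] (ρ : G →* R)

/-- The averaging element of `c`. -/
def ee (m : ℕ) (c : G) : R := ∑ i ∈ Finset.range m, ρ c ^ i

variable {ρ} {m : ℕ} {c d : G}

theorem mem_stabL_ee (hc : c ^ m = 1) : c ∈ stabL ρ (ee ρ m c) := by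
  rw [mem_stabL', ee, mul_geom_sum, ← map_pow, hc, map_one, sub_self]

theorem mem_stabR_ee (hc : c ^ m = 1) : c ∈ stabR ρ (ee ρ m c) := by
  rw [mem_stabR', ee, geom_sum_mul, ← map_pow, hc, map_one, sub_self]

theorem odd_nsmul (h2 : (2 : R) = 0) (hm : Odd m) (T : R) : m • T = T := by
  obtain ⟨j, rfl⟩ := hm
  rw [nsmul_eq_mul]
  push_cast
  rw [h2, zero_mul, zero_add, one_mul]

theorem ee_mul (h2 : (2 : R) = 0) (hm : Odd m) {T : R} (h : c ∈ stabL ρ T) : ee ρ m c * T = T := by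
  rw [ee, Finset.sum_mul, Finset.sum_congr rfl (g := fun _ => T) fun i _ => by
    rw [← map_pow]; exact pow_mem h i, Finset.sum_const, Finset.card_range, odd_nsmul h2 hm]

theorem mul_ee (h2 : (2 : R) = 0) (hm : Odd m) {T : R} (h : c ∈ stabR ρ T) : T * ee ρ m c = T := by
  rw [ee, Finset.mul_sum, Finset.sum_congr rfl (g := fun _ => T) fun i _ => by
    rw [← map_pow]; exact pow_mem h i, Finset.sum_const, Finset.card_range, odd_nsmul h2 hm]

theorem ee_eq (h2 : (2 : R) = 0) (hm : Odd m) (h1 : c ∈ stabL ρ (ee ρ m d))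
    (h3 : d ∈ stabR ρ (ee ρ m c)) : ee ρ m c = ee ρ m d :=
  (mul_ee h2 hm h3).symm.trans (ee_mul h2 hm h1)

theorem conj_ee (s : G) : ρ s * ee ρ m c = ee ρ m (s * c * s⁻¹) * ρ s := by
  rw [ee, ee, Finset.mul_sum, Finset.sum_mul]
  refine Finset.sum_congr rfl fun i _ => ?_
  rw [← map_pow, ← map_pow, ← map_mul, ← map_mul, conj_pow, inv_mul_cancel_right]

theorem comm_ee {s : G} (h : s * c = c * s) : ρ s * ee ρ m c = ee ρ m c * ρ s := by
  rw [conj_ee, h, mul_inv_cancel_right]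

theorem inv_ee (h2 : (2 : R) = 0) (hm : Odd m) (hc : c ^ m = 1) {s : G} (h : s * c * s⁻¹ = c⁻¹) :
    ρ s * ee ρ m c = ee ρ m c * ρ s := by
  rw [conj_ee, h, ee_eq h2 hm (inv_mem (mem_stabL_ee hc))
    (by simpa using inv_mem (mem_stabR_ee (ρ := ρ) (c := c⁻¹) (m := m) (by rw [inv_pow, hc, inv_one])))]

variable {K A : Subgroup G}

theorem Sit.not_mem_cen (S : Sit ρ K A) (hc : c ∈ K) (hcc : ¬ ∀ y ∈ K, c * y = y * c) :
    c ∉ cen ρ K := fun h =>
  (S.qs.simp _ nz_cen).elim S.not_le_cen fun h' => hcc (h' c hc h)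

theorem Sit.ee_comm (S : Sit ρ K A) (h2 : (2 : R) = 0) (hm : Odd m) (hcm : c ^ m = 1) (hc : c ∈ K)
    {a b : G} (hb : b ∈ A) (hbc : b * c * b⁻¹ = c⁻¹) (ha : a ∈ A)
    (han : a ∉ normalizer (K : Set G)) (hba : Z ρ b a) : ee ρ m c = ee ρ m (a * c * a⁻¹) := by
  have hab : a * b = b * a := S.comm a ha b hb
  set d := a * c * a⁻¹ with hd
  have hdm : d ^ m = 1 := by rw [hd, conj_pow, hcm, mul_one, mul_inv_cancel]
  have hcd : d * c = c * d := (S.cm ha han hc hc).eq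
  have hbd : b * d * b⁻¹ = d⁻¹ := by
    calc b * d * b⁻¹ = (b * a) * c * (b * a)⁻¹ := by rw [hd]; group
      _ = a * (b * c * b⁻¹) * a⁻¹ := by rw [← hab]; group
      _ = _ := by rw [hbc, hd]; group
  have h1 : ρ a * (ρ b - 1) = ρ b - 1 := Z_iff_L.mp (hba.symm hab.symm)
  have h3 : (ρ b - 1) * ee ρ m c = ee ρ m c * (ρ b - 1) := by
    rw [sub_mul, mul_sub, inv_ee h2 hm hcm hbc, mul_one, one_mul]
  have h4 : b ∈ stabR ρ (ee ρ m c - ee ρ m d) := by
    rw [mem_stabR', sub_mul, sub_eq_zero]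
    conv_rhs => rw [← h1, ← mul_assoc, ← conj_ee, mul_assoc, ← h3, ← mul_assoc, h1, h3]
  have h5 : ∀ s, s * c = c * s → s * d = d * s → s * b * s⁻¹ ∈ stabR ρ (ee ρ m c - ee ρ m d) :=
    fun s hs hs' => conj_mem_stabR (by rw [mul_sub, sub_mul, comm_ee hs, comm_ee hs']) h4
  have h6 := mem_of_inverted hm hcm hbc h4 (h5 c rfl hcd.symm)
  have h7 := mem_of_inverted hm hdm hbd h4 (h5 d hcd rfl)
  rw [mem_stabR, sub_mul] at h6 h7
  rw [mem_stabR.mp (mem_stabR_ee hcm), sub_right_inj] at h6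
  rw [mem_stabR.mp (mem_stabR_ee hdm), sub_left_inj] at h7
  exact ee_eq h2 hm (by rw [mem_stabL, comm_ee hcd.symm, h6]) h7

end Rng

section Mod
variable {k : Type*} [Ring k] {V : Type*} [AddCommGroup V] [Module k V] [Finite V]
variable {G : Type*} [Group G] [Finite G] {ρ : G →* Module.End k V} {K A : Subgroup G}

/-- An element moving `K` is not a transvection. -/
theorem Sit.lemT (S : Sit ρ K A) {a : G} (ha : a ∈ A) (han : a ∉ normalizer (K : Set G))
    (hr : Nat.card (LinearMap.range (ρ a - 1)) ≤ 2) : False := by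
  refine S.not_le_cen (S.qs.pf.le_of_pow nz_cen Nat.prime_two Nat.prime_three
    fun x hx => ⟨2, 1, ?_⟩)
  let W : Submodule k V := LinearMap.range (ρ a - 1) ⊔ (LinearMap.range (ρ a - 1)).map (ρ x)
  let H : Subgroup G :=
    { carrier := {g | ∀ v, (ρ g - 1) v ∈ W}
      mul_mem' := fun {g h} hg hh v => by
        have : ρ (g * h) - 1 = (ρ g - 1) * ρ h + (ρ h - 1) := by rw [map_mul]; noncomm_ring
        rw [this]
        exact W.add_mem (hg _) (hh v)
      one_mem' := fun v => by simp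
      inv_mem' := fun {g} hg v => by
        have : ρ g⁻¹ - 1 = -((ρ g - 1) * ρ g⁻¹) := by rw [sub_mul, mul_inv_self, one_mul, neg_sub]
        rw [this]
        exact W.neg_mem (hg _) }
  have h1 : a ∈ H := fun v => Submodule.mem_sup_left ⟨v, rfl⟩
  have h2 : x * a * x⁻¹ ∈ H := fun v => by
    rw [conj_sub_one]
    exact Submodule.mem_sup_right ⟨_, ⟨_, rfl⟩, rfl⟩
  set e := x * a * x⁻¹ * a⁻¹ with he
  have h3 : e ∈ H := H.mul_mem h2 (H.inv_mem h1)
  have h4 : ρ (e ^ 12) = 1 := by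
    ext v
    have h5 : ∀ i : Fin 5, ∃ p : LinearMap.range (ρ a - 1) × LinearMap.range (ρ a - 1),
        (ρ (e ^ (i : ℕ)) - 1) v = (p.1 : V) + ρ x p.2 := by
      intro i
      obtain ⟨s, hs, _, ⟨t, ht, rfl⟩, h⟩ := Submodule.mem_sup.mp (H.pow_mem h3 i v)
      exact ⟨(⟨s, hs⟩, ⟨t, ht⟩), h.symm⟩
    choose f hf using h5
    have h6 : ¬ Function.Injective f := fun hi => by
      have := Nat.card_le_card_of_injective f hi
      rw [Nat.card_prod, Nat.card_eq_fintype_card, Fintype.card_fin] at this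
      have := this.trans (Nat.mul_le_mul hr hr)
      omega
    have h7 : ∀ i j : Fin 5, i < j → f i = f j → e ^ 12 ∈ stabS ρ {v} := by
      intro i j hij hfij
      have h8 : ρ (e ^ (i : ℕ)) v = ρ (e ^ (j : ℕ)) v := by
        have := (hf i).trans (hfij ▸ (hf j).symm)
        simpa using this
      have h9 : e ^ ((j : ℕ) - i) ∈ stabS ρ {v} := by
        rintro _ rfl
        have : e ^ ((j : ℕ) - i) = (e ^ (i : ℕ))⁻¹ * e ^ (j : ℕ) := by
          rw [eq_inv_mul_iff_mul_eq, ← pow_add, Nat.add_sub_cancel' hij.le]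
        rw [this, map_mul, Module.End.mul_apply, ← h8, ← Module.End.mul_apply, inv_mul_self,
          Module.End.one_apply]
      have h10 : (j : ℕ) - i ∣ 12 := by
        have := j.2
        have : (i : ℕ) < j := hij
        have : (j : ℕ) - i = 1 ∨ (j : ℕ) - i = 2 ∨ (j : ℕ) - i = 3 ∨ (j : ℕ) - i = 4 := by omega
        rcases this with h | h | h | h <;> rw [h] <;> norm_num
      obtain ⟨l, hl⟩ := h10
      rw [hl, pow_mul]
      exact pow_mem h9 l
    rw [Function.Injective] at h6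
    push Not at h6
    obtain ⟨i, j, hij, hne⟩ := h6
    rcases lt_or_gt_of_ne hne with h | h
    · exact h7 i j h hij v rfl
    · exact h7 j i h hij.symm v rfl
  have hc : Commute (a * x⁻¹ * a⁻¹) x := S.cm ha han (K.inv_mem hx) hx
  have h5 : e = x * (a * x⁻¹ * a⁻¹) := by rw [he]; group
  rw [h5, hc.symm.mul_pow, conj_pow, map_mul] at h4
  refine S.mem_cen_of_eq ha han (K.pow_mem hx 12) ?_
  change ρ (x ^ 12) = _
  calc ρ (x ^ 12) = ρ (x ^ 12) * (ρ (a * x⁻¹ ^ 12 * a⁻¹) * ρ (a * x ^ 12 * a⁻¹)) := by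
        rw [← map_mul, inv_pow, show a * (x ^ 12)⁻¹ * a⁻¹ * (a * x ^ 12 * a⁻¹) = 1 by group, map_one,
          mul_one]
    _ = _ := by rw [← mul_assoc, h4, one_mul]

omit [Finite V] [Finite G] in
theorem inv_solve (h2 : (2 : Module.End k V) = 0) {s c : G} (hi : Function.Injective (ρ c - 1 :))
    {w : V} (hs : ρ s ((ρ c - 1) w) = (ρ c - 1) w) (hw : ρ c (ρ s (ρ c w)) = ρ s w) :
    (ρ c - 1) w = (ρ s - 1) w := by
  apply hi
  have h3 : ∀ v : V, v + v = 0 := fun v => by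
    have := congrArg (fun T : Module.End k V => T v) h2
    simpa [← one_add_one_eq_two] using this
  have h4 := congrArg (ρ c) hs
  simp only [LinearMap.sub_apply, Module.End.one_apply, map_sub] at hs h4 ⊢
  rw [hw] at h4
  have h5 := h3 (ρ c (ρ s w) - ρ s w)
  have h6 := h3 (ρ c w - w)
  rw [← h4]
  calc _ = (ρ c (ρ s w) - ρ s w - (ρ c w - w)) - (ρ c (ρ s w) - ρ s w + (ρ c (ρ s w) - ρ s w)) := by
        abel
    _ = _ := by rw [h5]; abel

/-- Schur's lemma for `⟨K, A⟩`. -/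
def Schur (ρ : G →* Module.End k V) (K A : Subgroup G) : Prop :=
  ∀ T : Module.End k V, (∀ x ∈ K, ρ x * T = T * ρ x) → (∀ a ∈ A, ρ a * T = T * ρ a) →
    T = 0 ∨ Function.Surjective T

theorem Sit.caseC_data (S : Sit ρ K A) (hS : Schur ρ K A) (h2 : (2 : Module.End k V) = 0)
    (hA : ∀ a ∈ A, a * a = 1) {a b : G} (ha : a ∈ A) (han : a ∉ normalizer (K : Set G))
    (hb : b ∈ A) (hbn : b ∈ normalizer (K : Set G)) (hb1 : ρ b ≠ 1) (hZ : ∀ a ∈ A, Z ρ b a) :
    LinearMap.ker (ρ b - 1) ≤ LinearMap.range (ρ b - 1) ∧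
      (∀ n, ρ a n = n → (ρ b - 1) n ∈ LinearMap.range (ρ a - 1) → ρ b n = n) ∧
      ∃ n, ρ a n = n ∧ ρ b n ≠ n := by
  obtain ⟨c, hc, hm, hbc, hcc⟩ := S.qs.exists_inverted (hA b hb) hbn (S.not_cent hb hb1)
    fun h => S.not_le_cen fun x hx y hy => by rw [← map_mul, ← map_mul, h x hx y hy]
  have hcm := pow_orderOf_eq_one c
  generalize orderOf c = m at hm hcm
  have hcen := S.not_mem_cen hc hcc
  have he : ∀ a ∈ A, a ∉ normalizer (K : Set G) → ρ a * ee ρ m c = ee ρ m c * ρ a := by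
    intro a ha han
    rw [conj_ee, ← S.ee_comm h2 hm hcm hc hb hbc ha han (hZ a ha)]
  have he0 : ee ρ m c = 0 := by
    refine (hS _ (fun x hx => ?_) (fun g hg => ?_)).resolve_right fun hs => hcen fun y _ => ?_
    · rw [S.ee_comm h2 hm hcm hc hb hbc ha han (hZ a ha)]
      exact comm_ee (S.cm ha han hc hx).symm.eq
    · by_cases hgn : g ∈ normalizer (K : Set G)
      · have h3 := he _ (A.mul_mem hg ha) fun h => han (by simpa using mul_mem (inv_mem hgn) h)
        calc ρ g * ee ρ m c = ρ (g * a) * (ρ a⁻¹ * ee ρ m c) := by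
              rw [← mul_assoc, ← map_mul, mul_inv_cancel_right]
          _ = _ := by
            rw [comm_inv (he a ha han), ← mul_assoc, h3, mul_assoc, ← map_mul, mul_inv_cancel_right]
      · exact he g hg hgn
    · have : ρ c = 1 := by
        ext v
        obtain ⟨w, rfl⟩ := hs v
        rw [← Module.End.mul_apply, mem_stabL.mp (mem_stabL_ee hcm), Module.End.one_apply]
      rw [this, one_mul, mul_one]
  -- evaluating `ee` on fixed vectors
  have hee : ∀ (g : G) (v : V), ρ g v = v → ee ρ m g v = v := by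
    intro g v hv
    have h3 : ∀ i : ℕ, (ρ g ^ i) v = v := fun i => by
      rw [← map_pow]
      exact pow_mem (show g ∈ stabS ρ {v} from fun w hw => by rw [hw, hv]) i v rfl
    rw [ee, LinearMap.sum_apply, Finset.sum_congr rfl fun i _ => h3 i, Finset.sum_const,
      Finset.card_range]
    have := congrArg (fun T : Module.End k V => T v) (odd_nsmul h2 hm 1)
    simpa using this
  have hinj : Function.Injective (ρ c - 1 :) := by
    rw [injective_iff_map_eq_zero]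
    intro v hv
    rw [← hee c v (by simpa [sub_eq_zero] using hv), he0, LinearMap.zero_apply]
  have hsurj : Function.Surjective (ρ c - 1 :) := Finite.surjective_of_injective hinj
  have hab : a * b = b * a := S.comm a ha b hb
  set f := c * (a * c * a⁻¹) with hf
  have hcd : Commute (a * c * a⁻¹) c := S.cm ha han hc hc
  have hfm : f ^ m = 1 := by
    rw [hf, hcd.symm.mul_pow, conj_pow, hcm, mul_one, mul_inv_cancel, mul_one]
  have hfa : f * a = a * f := S.diag_comm ha han (hA a ha) hc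
  have hfc : f * c = c * f := (Commute.mul_left (Commute.refl c) hcd).eq
  have hbf : b * f * b⁻¹ = f⁻¹ := by
    calc b * f * b⁻¹ = b * c * b⁻¹ * ((b * a) * c * (b * a)⁻¹) := by rw [hf]; group
      _ = b * c * b⁻¹ * (a * (b * c * b⁻¹) * a⁻¹) := by rw [← hab]; group
      _ = ((a * c * a⁻¹) * c)⁻¹ := by rw [hbc]; group
      _ = _ := by rw [hcd.eq]
  have hZf : Z ρ f a := S.Z_diag_aux ha han (hA a ha) hb hbn hb1 (hZ a ha) c hc
  have hZf' : Z ρ a f := hZf.symm hfa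
  have hU : ∀ v, ρ a v = v → ρ f v = v → v ∈ LinearMap.range (ρ a - 1) := by
    intro v hv hv'
    obtain ⟨w, rfl⟩ := hsurj v
    have h3 : ρ f w = w := by
      apply hinj
      rw [← Module.End.mul_apply, ← comm_sub_one hfc, Module.End.mul_apply, hv']
    refine ⟨w, (inv_solve h2 hinj hv ?_).symm⟩
    calc ρ c (ρ a (ρ c w)) = ρ (f * a) w := by
          rw [hf, show c * (a * c * a⁻¹) * a = c * a * c by group, map_mul, map_mul]; rfl
      _ = _ := by rw [hfa, map_mul, Module.End.mul_apply, h3]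
  refine ⟨fun v hv => ?_, fun n hn hn' => ?_, ?_⟩
  · obtain ⟨w, rfl⟩ := hsurj v
    refine ⟨w, (inv_solve h2 hinj (by simpa [sub_eq_zero] using hv) ?_).symm⟩
    calc ρ c (ρ b (ρ c w)) = ρ (c * (b * c * b⁻¹) * b) w := by
          rw [show c * (b * c * b⁻¹) * b = c * b * c by group, map_mul, map_mul]; rfl
      _ = _ := by rw [hbc, mul_inv_cancel, one_mul]
  · obtain ⟨u, hu⟩ := hU (ee ρ m f n)
      (by rw [← Module.End.mul_apply, comm_ee hfa.symm, Module.End.mul_apply, hn])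
      (by rw [← Module.End.mul_apply, mem_stabL.mp (mem_stabL_ee hfm)])
    obtain ⟨u', hu'⟩ := hn'
    have h3 : ee ρ m f ((ρ b - 1) n) = (ρ b - 1) n := hee _ _ (by
      rw [← hu', ← Module.End.mul_apply, mem_stabL.mp (Z_iff_L.mp hZf)])
    have h4 : (ρ b - 1) * ee ρ m f = ee ρ m f * (ρ b - 1) := by
      rw [sub_mul, mul_sub, inv_ee h2 hm hfm hbf, mul_one, one_mul]
    rw [← Module.End.mul_apply, ← h4, Module.End.mul_apply, ← hu, ← Module.End.mul_apply,
      show (ρ b - 1) * (ρ a - 1) = 0 from hZ a ha, LinearMap.zero_apply] at h3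
    simpa [sub_eq_zero] using h3.symm
  · by_contra hcon
    push Not at hcon
    have h3 : b ∈ stabL ρ (ρ f - 1) := by
      rw [mem_stabL]
      ext v
      exact hcon _ (by rw [← Module.End.mul_apply, mem_stabL.mp (Z_iff_L.mp hZf')])
    have h4 := mem_of_inverted hm hfm hbf h3 (conj_mem_stabL (comm_sub_one rfl) h3)
    have h5 := (Z_iff_L.mpr h4).pow 2
    have h6 : f ∈ stabL ρ 1 := mem_of_sq_mem hm hfm (by
      rw [mem_stabL, mul_one, ← pow_two, h5, Nat.cast_ofNat, h2, zero_mul, add_zero])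
    rw [mem_stabL, mul_one, hf, map_mul] at h6
    refine hcen (S.mem_cen_of_eq ha han (K.inv_mem hc) ?_)
    calc ρ c = ρ c * (ρ (a * c * a⁻¹) * ρ (a * c⁻¹ * a⁻¹)) := by
          rw [← map_mul, show a * c * a⁻¹ * (a * c⁻¹ * a⁻¹) = 1 by group, map_one, mul_one]
      _ = _ := by rw [← mul_assoc, h6, one_mul]

theorem Sit.two (S : Sit ρ K A) (hS : Schur ρ K A) (h2 : (2 : Module.End k V) = 0)
    (hA : ∀ a ∈ A, a * a = 1) (hP : ∀ B ≤ A, jj ρ B ≤ jj ρ A) {B : Subgroup G} (hBA : B ≤ A)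
    (hj : jj ρ B = jj ρ A) (hZ : ∀ b ∈ B, ∀ a ∈ A, Z ρ b a) {b : G} (hb : b ∈ B) (hb1 : ρ b ≠ 1)
    {a : G} (ha : a ∈ A) (han : a ∉ normalizer (K : Set G)) : False := by
  have hi : ∀ a ∈ A, a⁻¹ = a := fun a ha => inv_eq_of_mul_eq_one_right (hA a ha)
  by_cases h4 : ∃ a₁ ∈ A, ∃ a₂ ∈ A, a₁ ∉ normalizer (K : Set G) ∧ a₂ ∉ normalizer (K : Set G) ∧
      a₁ * a₂ ∉ normalizer (K : Set G)
  · obtain ⟨a₁, h1, a₂, h1', h3, h3', h3''⟩ := h4
    exact S.four h2 hA (hBA hb) hb1 (hZ b hb) h1 h1' h3 h3' h3''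
  push Not at h4
  set B₀ := B ⊓ normalizer (K : Set G) with hB₀
  have c1 : Nat.card B ≤ 2 * Nat.card B₀ := card_le_two_mul B _ fun x hx y hy hx' hy' => by
    rw [hi x (hBA hx)]
    exact h4 x (hBA hx) y (hBA hy) hx' hy'
  set N₀ := A ⊓ stabL ρ 1 with hN₀
  have c2 : Nat.card N₀ * Nat.card V ≤ Nat.card B * Nat.card (fix ρ B) := by
    have h5 := (hP N₀ inf_le_left).trans hj.ge
    have h6 : fix ρ N₀ = ⊤ := eq_top_iff.mpr fun v _ g hg => by
      have := mem_stabL.mp hg.2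
      rw [mul_one] at this
      rw [this, Module.End.one_apply]
    unfold jj at h5
    rwa [h6, Nat.card_congr (Submodule.topEquiv (R := k) (M := V)).toEquiv] at h5
  have c3 : ∀ b ∈ B, Nat.card (fix ρ B) ≤ Nat.card (LinearMap.ker (ρ b - 1)) := fun b hb =>
    card_le_of_le fun v hv => by simpa [sub_eq_zero] using hv b hb
  have hpos : ∀ W : Submodule k V, 0 < Nat.card W := fun W => Nat.card_pos
  by_cases h5 : ∀ b ∈ B₀, ρ b = 1
  · refine S.lemT (hBA hb) (fun hbn => hb1 (h5 b ⟨hb, hbn⟩)) ?_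
    have c4 : Nat.card B₀ ≤ Nat.card N₀ := Subgroup.card_le_of_le fun g hg =>
      ⟨hBA hg.1, mem_stabL.mpr (by rw [h5 g hg, one_mul])⟩
    rw [← card_ker_mul_range (V := V) (ρ b - 1)] at c2
    have c5 := c2.trans (Nat.mul_le_mul (c1.trans (Nat.mul_le_mul_left 2 c4)) (c3 b hb))
    refine Nat.le_of_mul_le_mul_left (?_ : Nat.card N₀ * Nat.card (LinearMap.ker (ρ b - 1)) * _ ≤
      Nat.card N₀ * Nat.card (LinearMap.ker (ρ b - 1)) * 2) (Nat.mul_pos Nat.card_pos (hpos _))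
    calc _ = _ := by ring
      _ ≤ _ := c5
      _ = _ := by ring
  push Not at h5
  obtain ⟨b, hb, hb1⟩ := h5
  obtain ⟨d1, -, n, hn, hn'⟩ :=
    S.caseC_data hS h2 hA ha han (hBA hb.1) hb.2 hb1 (hZ b hb.1)
  refine S.lemT ha han ?_
  have c4 := count B₀ N₀ (LinearMap.range (ρ a - 1)) (LinearMap.ker (ρ b - 1))
    (fun g => (ρ g - 1) n)
    (fun g hg => by
      rw [LinearMap.mem_ker, ← Module.End.mul_apply,
        show (ρ b - 1) * (ρ g - 1) = 0 from hZ b hb.1 g (hBA hg.1), LinearMap.zero_apply])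
    (by
      rintro _ ⟨v, rfl⟩
      rw [LinearMap.mem_ker, ← Module.End.mul_apply,
        show (ρ b - 1) * (ρ a - 1) = 0 from hZ b hb.1 a ha, LinearMap.zero_apply])
    (fun g hg h hh hgh => by
      have hm := B₀.mul_mem (B₀.inv_mem hg) hh
      refine ⟨hBA hm.1, mem_stabL.mpr ?_⟩
      rw [mul_one]
      by_contra hne
      obtain ⟨e1, e2, -⟩ := S.caseC_data hS h2 hA ha han (hBA hm.1) hm.2 hne (hZ _ hm.1)
      have e3 : ρ (g⁻¹ * h) - 1 = -((ρ g - 1) - (ρ h - 1)) := by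
        have e4 : ρ g * (ρ (g⁻¹ * h) - 1) = ρ (g⁻¹ * h) - 1 :=
          Z_iff_L.mp (hZ g hg.1 _ (hBA hm.1))
        rw [← e4, mul_sub, ← map_mul, mul_inv_cancel_left, mul_one]
        abel
      have e5 := e2 n hn (by rw [e3]; exact neg_mem hgh)
      obtain ⟨u, hu⟩ := e1 (show n ∈ _ by simpa [sub_eq_zero] using e5)
      apply hn'
      rw [← hu, ← Module.End.mul_apply, mem_stabL.mp (Z_iff_L.mp (hZ b hb.1 _ (hBA hm.1)))])
  rw [← card_ker_mul_range (V := V) (ρ b - 1)] at c2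
  have c5 := (Nat.mul_le_mul_left _ (Nat.mul_le_mul_left _ (card_le_of_le d1))).trans
    (c2.trans (Nat.mul_le_mul c1 (c3 b hb.1)))
  have c6 : Nat.card (LinearMap.ker (ρ b - 1)) * Nat.card N₀ ≤ Nat.card B₀ * 2 := by
    refine Nat.le_of_mul_le_mul_left ?_ (hpos (LinearMap.ker (ρ b - 1)))
    calc _ = _ := by ring
      _ ≤ _ := c5
      _ = _ := by ring
  exact Nat.le_of_mul_le_mul_left (c4.trans c6) Nat.card_pos

end Mod

end Cfsg.Lib.PGV
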