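import Cfsg.Agent.Local.IsolatedP
import Cfsg.Agent.Block.ZStar
import Cfsg.Agent.Trans.SylowIn

/-!
The Z*-theorem for isolated 2-elements of arbitrary order.
-/

set_option autoImplicit false

namespace Cfsg.Lib.Local.Iso

open Cfsg.Lib Cfsg.Lib.Trans Subgroup

universe u

variable {G : Type u} [Group G]

theorem conj {x : G} (hx : IsIsolated x) (c : G) : IsIsolated (c * x * c⁻¹) := by
  intro g hg
  have h1 : Commute x (c⁻¹ * g * c * x * (c⁻¹ * g * c)⁻¹) := by
    have := hg.eq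
    change x * _ = _ * x
    calc x * (c⁻¹ * g * c * x * (c⁻¹ * g * c)⁻¹)
        = c⁻¹ * (c * x * c⁻¹ * (g * (c * x * c⁻¹) * g⁻¹)) * c := by group
      _ = _ := by rw [this]; group
  calc g * (c * x * c⁻¹) * g⁻¹ = c * (c⁻¹ * g * c * x * (c⁻¹ * g * c)⁻¹) * c⁻¹ := by group
    _ = _ := by rw [hx _ h1]

variable [Finite G]

/-- Powers of an isolated `p`-element are isolated. -/
theorem pow {p : ℕ} [Fact p.Prime] {x : G} (hx : IsIsolated x) {k : ℕ} (ho : orderOf x = p ^ k)
    (n : ℕ) : IsIsolated (x ^ n) := by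
  intro g hg
  have hp : IsPGroup p (zpowers x) := isPGroup_zpowers_of_orderOf ho
  have hp' : IsPGroup p (zpowers (g * x ^ n * g⁻¹)) := by
    rw [← cj_zpowers]
    exact isPGroup_cj (hp.to_le (zpowers_le.2 (pow_mem (mem_zpowers x) n))) g
  obtain ⟨S, hS, hle⟩ := exists_isSylowIn_ge hp' (zpowers_le.2
    (mem_centralizer_singleton_iff.2 hg.eq.symm : g * x ^ n * g⁻¹ ∈ centralizer {x ^ n}))
  obtain ⟨c, hc, hcS⟩ := hS.exists_cj_le hp (zpowers_le.2
    (mem_centralizer_singleton_iff.2 (Commute.self_pow x n).eq))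
  rw [cj_zpowers, zpowers_le] at hcS
  have hcx : c * x ^ n * c⁻¹ = x ^ n := by
    rw [mem_centralizer_singleton_iff.1 hc, mul_inv_cancel_right]
  have h1 : c * x * c⁻¹ ∈ centralizer ({g * x ^ n * g⁻¹} : Set G) :=
    mem_centralizer_singleton_iff.2 (mem_centralizer_singleton_iff.1
      (le_centralizer (conj hx c) hS.isPGroup hcS (hle (mem_zpowers _)))).symm
  obtain ⟨d, hd, hdg⟩ := exists_mul_mem_centralizer (conj hx c) (k := k)
    (by rw [orderOf_conj, ho]) h1 (g := g * c⁻¹) (by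
      rw [show g * c⁻¹ * (c * x * c⁻¹) * (g * c⁻¹)⁻¹ = g * x * g⁻¹ by group,
        mem_centralizer_singleton_iff, ← conj_pow]
      exact (Commute.self_pow _ n).eq)
  have h2 : d * (g * c⁻¹) * x ^ n = x ^ n * (d * (g * c⁻¹)) := by
    have h3 : Commute (d * (g * c⁻¹)) (c * x * c⁻¹) := mem_centralizer_singleton_iff.1 hdg
    have h4 := (h3.pow_right n).eq
    rwa [conj_pow, hcx] at h4
  have h3 := mem_centralizer_singleton_iff.1 hd
  calc g * x ^ n * g⁻¹ = d * (g * x ^ n * g⁻¹) * d⁻¹ := by rw [h3, mul_inv_cancel_right]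
    _ = d * (g * c⁻¹) * (c * x ^ n * c⁻¹) * (d * (g * c⁻¹))⁻¹ := by group
    _ = x ^ n := by rw [hcx, h2, mul_inv_cancel_right]

theorem mem_center_two (k : ℕ) : ∀ (G : Type u) [Group G] [Finite G] (x : G),
    pPrimeCore 2 G = ⊥ → IsIsolated x → x ^ 2 ^ k = 1 → x ∈ center G := by
  induction k with
  | zero => intro G _ _ x _ _ h; rw [pow_zero, pow_one] at h; rw [h]; exact one_mem _
  | succ k ih =>
    intro G _ _ x hO hx h
    by_cases h1 : x ^ 2 ^ k = 1
    · exact ih G x hO hx h1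
    obtain ⟨j, -, hj⟩ := (Nat.dvd_prime_pow Nat.prime_two).1 (orderOf_dvd_of_pow_eq_one h)
    have hy2 : orderOf (x ^ 2 ^ k) = 2 :=
      orderOf_eq_prime (by rw [← pow_mul, ← pow_succ, h]) h1
    have hy : x ^ 2 ^ k ∈ center G := Block.Princ.zstar_center ⟨hy2, pow hx hj _⟩ hO
    have hNZ : zpowers (x ^ 2 ^ k) ≤ center G := zpowers_le.2 hy
    have hN : (zpowers (x ^ 2 ^ k)).Normal := ⟨fun a ha g => by
      rwa [mem_center_iff.1 (hNZ ha) g, mul_inv_cancel_right]⟩
    have h2 := ih (G ⧸ zpowers (x ^ 2 ^ k)) (QuotientGroup.mk' _ x)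
      (Block.Princ.pPrimeCore_quotient_central _ (isPGroup_zpowers_of_orderOf_eq hy2) hNZ hO)
      (map_of_surjective hx hj _ (QuotientGroup.mk'_surjective _))
      (by rw [← map_pow, QuotientGroup.mk'_apply, QuotientGroup.eq_one_iff]; exact mem_zpowers _)
    rw [mem_center_iff]
    intro g
    have h3 : g * x * g⁻¹ * x⁻¹ ∈ zpowers (x ^ 2 ^ k) := by
      rw [← QuotientGroup.eq_one_iff]
      have := mem_center_iff.1 h2 (QuotientGroup.mk' _ g)
      change QuotientGroup.mk' _ (g * x * g⁻¹ * x⁻¹) = 1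
      rw [map_mul, map_mul, map_mul, map_inv, map_inv, this]
      group
    have h4 : Commute x (g * x * g⁻¹) := by
      have h5 := mem_center_iff.1 (hNZ h3) x
      change x * _ = _ * x
      calc x * (g * x * g⁻¹) = x * (g * x * g⁻¹ * x⁻¹) * x := by group
        _ = _ := by rw [h5]; group
    rw [← mul_inv_eq_iff_eq_mul, hx g h4]

/-- The Z*-theorem for isolated 2-elements. -/
theorem inZStar_two {x : G} (hx : IsIsolated x) {k : ℕ} (ho : orderOf x = 2 ^ k) :
    InZStar 2 x := by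
  intro g
  have h := mem_center_two k (G ⧸ pPrimeCore 2 G) (QuotientGroup.mk' _ x)
    (Solv.pPrimeCore_quotient_pPrimeCore 2 G)
    (map_of_surjective hx ho _ (QuotientGroup.mk'_surjective _))
    (by rw [← map_pow, ← ho, pow_orderOf_eq_one, map_one])
  rw [← QuotientGroup.eq_one_iff]
  have := mem_center_iff.1 h (QuotientGroup.mk' _ g)
  change QuotientGroup.mk' _ (g * x * g⁻¹ * x⁻¹) = 1
  rw [map_mul, map_mul, map_mul, map_inv, map_inv, this]
  group

end Cfsg.Lib.Local.Iso
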